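import Mathlib
import Cfsg.Agent.Lib.Helper32.D8Stmt
import Cfsg.Agent.Lib.Helper26.GenChar
import Cfsg.Agent.Lib.Helper3.Irr
import Cfsg.Agent.Lib.Helper77.DihLat
import Cfsg.Agent.Lib.CT.ClassMult

/-!
# S3716 piece PAIR (the pair relation for a generalized character of norm 4)
-/

set_option autoImplicit false
set_option maxHeartbeats 1000000

namespace Cfsg.Agent.Lib.Helper48.D8PAIR

open Cfsg Cfsg.Agent.Lib.CT Cfsg.Agent.Lib.Helper26.GenChar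
open Cfsg.Agent.Lib.Helper32 Cfsg.Agent.Lib.Helper3.Irr
open scoped ComplexConjugate

universe u

/-- four masses with zero total mass and zero first moments -/
theorem alg (m₁ m₂ m₃ m₄ p₁ p₂ p₃ p₄ q₁ q₂ q₃ q₄ Buu Buv Bvv : ℂ) (hm₃ : m₃ ≠ 0)
    (h0 : m₁ + m₂ + m₃ + m₄ = 0) (hp : m₁ * p₁ + m₂ * p₂ + m₃ * p₃ + m₄ * p₄ = 0)
    (hq : m₁ * q₁ + m₂ * q₂ + m₃ * q₃ + m₄ * q₄ = 0)
    (hBuu : Buu = m₁ * p₁ ^ 2 + m₂ * p₂ ^ 2 + m₃ * p₃ ^ 2 + m₄ * p₄ ^ 2)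
    (hBuv : Buv = m₁ * p₁ * q₁ + m₂ * p₂ * q₂ + m₃ * p₃ * q₃ + m₄ * p₄ * q₄)
    (hBvv : Bvv = m₁ * q₁ ^ 2 + m₂ * q₂ ^ 2 + m₃ * q₃ ^ 2 + m₄ * q₄ ^ 2) :
    m₁ * m₂ * (Bvv * (p₁ - p₂) ^ 2 - 2 * Buv * (p₁ - p₂) * (q₁ - q₂) + Buu * (q₁ - q₂) ^ 2) =
      (m₁ + m₂) * (Buu * Bvv - Buv ^ 2) := by
  subst hBuu hBuv hBvv
  have e4 : m₄ = -(m₁ + m₂ + m₃) := by linear_combination h0
  subst e4
  have e3p : p₃ = p₄ - (m₁ * (p₁ - p₄) + m₂ * (p₂ - p₄)) / m₃ := by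
    field_simp
    linear_combination hp
  have e3q : q₃ = q₄ - (m₁ * (q₁ - q₄) + m₂ * (q₂ - q₄)) / m₃ := by
    field_simp
    linear_combination hq
  rw [e3p, e3q]
  field_simp
  ring

theorem main : D8Stmt.PAIR.{u} := by
  intro G _ _ Ψ χ χ' ε ε' u v hΨ h1 hnorm hu hv hχ hχ' hne hε hε' hc1 hc2
  classical
  haveI := Cfsg.Agent.Lib.CT.Wedderburn.finite_irrCharacter G
  haveI := Fintype.ofFinite (IrrCharacter G)
  obtain ⟨c, hc, he⟩ := exists_int_mult hΨ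
  have hsq := classInner_self_eq_sum_sq c hc he
  rw [hnorm] at hsq
  have hsq' : ∑ ψ : IrrCharacter G, c ψ * c ψ = 4 := by exact_mod_cast hsq.symm
  obtain ⟨t, ht⟩ : ∃ t : IrrCharacter G, (t : G → ℂ) = χ := ⟨⟨χ, hχ⟩, rfl⟩
  obtain ⟨t', ht'⟩ : ∃ t' : IrrCharacter G, (t' : G → ℂ) = χ' := ⟨⟨χ', hχ'⟩, rfl⟩
  have htt' : t ≠ t' := fun h => hne (by rw [← ht, ← ht', h])
  have hct : (c t : ℂ) = ε := by rw [← hc t, ht]; exact hc1
  have hct' : (c t' : ℂ) = ε' := by rw [← hc t', ht']; exact hc2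
  have hct1 : c t = 1 ∨ c t = -1 := by
    rcases hε with h | h
    · left; rw [h] at hct; exact_mod_cast hct
    · right; rw [h] at hct; exact_mod_cast hct
  have hct'1 : c t' = 1 ∨ c t' = -1 := by
    rcases hε' with h | h
    · left; rw [h] at hct'; exact_mod_cast hct'
    · right; rw [h] at hct'; exact_mod_cast hct'
  have hsq1 : c t * c t = 1 := by rcases hct1 with h | h <;> rw [h] <;> norm_num
  have hsq2 : c t' * c t' = 1 := by rcases hct'1 with h | h <;> rw [h] <;> norm_num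
  have ht'mem : t' ∈ Finset.univ.erase t := Finset.mem_erase.mpr ⟨htt'.symm, Finset.mem_univ t'⟩
  have hrest : ∑ ψ ∈ (Finset.univ.erase t).erase t', c ψ * c ψ = 2 := by
    have e1 : c t * c t + ∑ ψ ∈ Finset.univ.erase t, c ψ * c ψ = ∑ ψ, c ψ * c ψ :=
      Finset.add_sum_erase Finset.univ (fun ψ => c ψ * c ψ) (Finset.mem_univ t)
    have e2 : c t' * c t' + ∑ ψ ∈ (Finset.univ.erase t).erase t', c ψ * c ψ =
        ∑ ψ ∈ Finset.univ.erase t, c ψ * c ψ :=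
      Finset.add_sum_erase (Finset.univ.erase t) (fun ψ => c ψ * c ψ) ht'mem
    linarith
  obtain ⟨a, haT, b, hbT, hab, hva, hvb, hzero⟩ :=
    Cfsg.Agent.Lib.Helper77.DihLat.norm_two _ c hrest
  have hΨ' : ∀ g, Ψ g = ε * χ g + ε' * χ' g + (c a : ℂ) * (a : G → ℂ) g
      + (c b : ℂ) * (b : G → ℂ) g := by
    intro g
    have h2 := congrFun he g
    rw [Finset.sum_apply] at h2
    rw [h2, ← Finset.add_sum_erase _ _ (Finset.mem_univ t), ← Finset.add_sum_erase _ _ ht'mem,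
      ← Finset.add_sum_erase _ _ haT,
      ← Finset.add_sum_erase _ _ (Finset.mem_erase.mpr ⟨hab.symm, hbT⟩)]
    rw [Finset.sum_eq_zero, add_zero]
    · simp only [Pi.smul_apply, smul_eq_mul, hct, hct', ht, ht']
      ring
    · intro ψ hψ
      have hψb := Finset.ne_of_mem_erase hψ
      have hψ2 := Finset.mem_of_mem_erase hψ
      have hψa := Finset.ne_of_mem_erase hψ2
      have hψ3 := Finset.mem_of_mem_erase hψ2
      rw [hzero ψ hψ3 hψa hψb]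
      simp
  have hχ1 : χ 1 ≠ 0 := IsIrrCharacter.apply_one_ne_zero hχ
  have hχ'1 : χ' 1 ≠ 0 := IsIrrCharacter.apply_one_ne_zero hχ'
  have ha1 : (a : G → ℂ) 1 ≠ 0 := IsIrrCharacter.apply_one_ne_zero a.2
  have hb1 : (b : G → ℂ) 1 ≠ 0 := IsIrrCharacter.apply_one_ne_zero b.2
  have hca : (c a : ℂ) ≠ 0 := by
    rcases hva with h | h <;> rw [h] <;> norm_num
  have hG : (Nat.card G : ℂ) ≠ 0 := by exact_mod_cast Nat.card_pos.ne'
  have hbb : ∀ x y : G, D8Stmt.bb Ψ x y = ε * (χ x * χ y / χ 1) + ε' * (χ' x * χ' y / χ' 1)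
      + (c a : ℂ) * ((a : G → ℂ) x * (a : G → ℂ) y / (a : G → ℂ) 1)
      + (c b : ℂ) * ((b : G → ℂ) x * (b : G → ℂ) y / (b : G → ℂ) 1) := by
    intro x y
    unfold D8Stmt.bb
    simp only [hΨ']
    rw [Finset.sum_add_distrib, Finset.sum_add_distrib, Finset.sum_add_distrib,
      ← Finset.mul_sum, ← Finset.mul_sum, ← Finset.mul_sum, ← Finset.mul_sum,
      ClassMult.irr_schur_average hχ, ClassMult.irr_schur_average hχ',
      ClassMult.irr_schur_average a.2, ClassMult.irr_schur_average b.2]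
    field_simp
  have e0 := hΨ' 1
  have eu := hΨ' u
  have ev := hΨ' v
  rw [h1] at e0
  rw [hu] at eu
  rw [hv] at ev
  refine alg (ε * χ 1) (ε' * χ' 1) ((c a : ℂ) * (a : G → ℂ) 1) ((c b : ℂ) * (b : G → ℂ) 1)
    (χ u / χ 1) (χ' u / χ' 1) ((a : G → ℂ) u / (a : G → ℂ) 1) ((b : G → ℂ) u / (b : G → ℂ) 1)
    (χ v / χ 1) (χ' v / χ' 1) ((a : G → ℂ) v / (a : G → ℂ) 1) ((b : G → ℂ) v / (b : G → ℂ) 1)
    _ _ _ (mul_ne_zero hca ha1) ?_ ?_ ?_ ?_ ?_ ?_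
  · rw [e0]
  · rw [eu]; field_simp
  · rw [ev]; field_simp
  · rw [hbb]; field_simp
  · rw [hbb]; field_simp
  · rw [hbb]; field_simp

end Cfsg.Agent.Lib.Helper48.D8PAIR
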