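import Mathlib
import Cfsg.Agent.Lib.Helper25.ACStmt

/-!
# S3912 piece EXPSYL (helper25's call): a Sylow subgroup of exponent `r` lies in every nontrivial
normal `r`-subgroup
-/

set_option autoImplicit false

namespace Cfsg.Agent.Lib.Helper48.ACEXPSYL

open Cfsg.Agent.Lib.Helper25.ACStmt

universe u

theorem main : ExpSyl.{u} := by
  intro G _ _ hB r hr R N₀ hN₀n hN₀p hN₀1 hexp
  have hrp : r.Prime := hr.out
  -- an element of order `r` in `N₀`
  have hnt : Nontrivial ↥N₀ := (Subgroup.nontrivial_iff_ne_bot N₀).mpr hN₀1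
  have hdvd : r ∣ Nat.card ↥N₀ := by
    rcases hN₀p.card_eq_or_dvd with h | h
    · exact absurd h (Finite.one_lt_card).ne'
    · exact h
  obtain ⟨y₀, hy₀⟩ := exists_prime_orderOf_dvd_card' r hdvd
  have hy : orderOf (y₀ : G) = r := by rw [Subgroup.orderOf_coe]; exact hy₀
  have hyN : Subgroup.zpowers (y₀ : G) ≤ N₀ := (Subgroup.zpowers_le).mpr y₀.2
  -- `R ≤ N₀`
  have hRN : (R : Subgroup G) ≤ N₀ := by
    intro x hx
    by_cases hx1 : x = 1
    · rw [hx1]; exact N₀.one_mem
    · have hxo : orderOf x = r := orderOf_eq_prime (hexp x hx) hx1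
      have hcard : Nat.card ↥(Subgroup.zpowers (y₀ : G)) = Nat.card ↥(Subgroup.zpowers x) := by
        rw [Nat.card_zpowers, Nat.card_zpowers, hy, hxo]
      obtain ⟨g, hg⟩ := hB (Subgroup.zpowers (y₀ : G)) (Subgroup.zpowers x) inferInstance
        inferInstance hcard
      have hxm : x ∈ (Subgroup.zpowers (y₀ : G)).map (MulAut.conj g).toMonoidHom := by
        rw [← hg]; exact Subgroup.mem_zpowers x
      obtain ⟨a, ha, rfl⟩ := hxm
      exact hN₀n.conj_mem a (hyN ha) g
  -- the index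
  have hidx : N₀.index ∣ (R : Subgroup G).index := Subgroup.index_dvd_of_le hRN
  have hnd : ¬ r ∣ N₀.index := fun h => R.not_dvd_index (h.trans hidx)
  obtain ⟨n, hn⟩ := IsPGroup.iff_card.mp hN₀p
  rw [hn]
  exact Nat.Coprime.pow_left n ((Nat.Prime.coprime_iff_not_dvd hrp).mpr hnd)

end Cfsg.Agent.Lib.Helper48.ACEXPSYL
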