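import Mathlib
import Cfsg.Agent.Lib.Helper25.ACStmt

/-!
# S3912 piece SPLITB (helper25's call): elements of order prime to `r` are central when all
commutators and all elements of order `r` lie in a subgroup `N` of order `r` and `r² ∣ #X`
-/

set_option autoImplicit false

namespace Cfsg.Agent.Lib.Helper48.ACSPLITB

open Cfsg.Agent.Lib.Helper25.ACStmt

universe u

section

variable {X : Type*} [Group X]

/-- if `m = h x h⁻¹ x⁻¹` commutes with `h` then `h ^ k * x = m ^ k * x * h ^ k` -/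
theorem pow_conj_eq (h x m : X) (hm : m = h * x * h⁻¹ * x⁻¹) (hc : Commute h m) (k : ℕ) :
    h ^ k * x = m ^ k * x * h ^ k := by
  have hx : h * x = m * x * h := by rw [hm]; group
  induction k with
  | zero => simp
  | succ k ih =>
    calc h ^ (k + 1) * x = h * (h ^ k * x) := by rw [pow_succ']; group
      _ = h * (m ^ k * x * h ^ k) := by rw [ih]
      _ = (h * m ^ k) * x * h ^ k := by group
      _ = (m ^ k * h) * x * h ^ k := by rw [(hc.pow_right k).eq]
      _ = m ^ k * (h * x) * h ^ k := by group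
      _ = m ^ k * (m * x * h) * h ^ k := by rw [hx]
      _ = m ^ (k + 1) * x * h ^ (k + 1) := by rw [pow_succ, pow_succ']; group

end

theorem main : SplitB.{u} := by
  intro X _ _ r hr N hN hord hcomm hrr P h hh x _
  have hrp : r.Prime := hr.out
  -- `m ^ r = 1` for `m ∈ N`
  have hNpow : ∀ m ∈ N, m ^ r = 1 := by
    intro m hm
    have h1 : (⟨m, hm⟩ : N) ^ Nat.card N = 1 := pow_card_eq_one'
    rw [hN] at h1
    have h2 := congrArg (fun z : N => (z : X)) h1
    simpa using h2
  -- an element of `P` with `y ^ r ≠ 1`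
  have hex : ∃ y ∈ (P : Subgroup X), y ^ r ≠ 1 := by
    by_contra hcon
    push Not at hcon
    have hPN : (P : Subgroup X) ≤ N := by
      intro y hy
      by_cases hy1 : y = 1
      · rw [hy1]; exact N.one_mem
      · exact hord y (orderOf_eq_prime (hcon y hy) hy1)
    have h1 : Nat.card (P : Subgroup X) ≤ r := le_of_le_of_eq (Subgroup.card_le_of_le hPN) hN
    have h2 : r ^ 2 ∣ Nat.card (P : Subgroup X) :=
      P.pow_dvd_card_of_pow_dvd_card (by rw [pow_two]; exact hrr)
    have h3 : r ^ 2 ≤ Nat.card (P : Subgroup X) := Nat.le_of_dvd Nat.card_pos h2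
    have h4 : 2 ≤ r := hrp.two_le
    nlinarith
  obtain ⟨y, hy, hyr⟩ := hex
  obtain ⟨k, hk⟩ := (IsPGroup.iff_orderOf.mp P.isPGroup') ⟨y, hy⟩
  have hyo : orderOf y = r ^ k := by
    rw [← hk]
    exact Subgroup.orderOf_coe (⟨y, hy⟩ : (P : Subgroup X))
  have hk2 : 2 ≤ k := by
    by_contra hlt
    push Not at hlt
    apply hyr
    have hd : orderOf y ∣ r := by
      rw [hyo]
      interval_cases k
      · simp
      · simp
    exact orderOf_dvd_iff_pow_eq_one.mp hd
  obtain ⟨j, rfl⟩ : ∃ j, k = j + 2 := ⟨k - 2, by omega⟩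
  have hr0 : r ≠ 0 := hrp.ne_zero
  have hrpos : 0 < r := hrp.pos
  -- `w` of order `r²`
  have hwo : orderOf (y ^ r ^ j) = r ^ 2 := by
    rw [orderOf_pow_of_dvd (pow_ne_zero j hr0) (by rw [hyo]; exact pow_dvd_pow r (by omega)), hyo,
      pow_add, Nat.mul_div_cancel_left _ (pow_pos hrpos j)]
  generalize y ^ r ^ j = w at hwo
  have hzo : orderOf (w ^ r) = r := by
    rw [orderOf_pow_of_dvd hr0 (by rw [hwo]; exact dvd_pow_self r (by norm_num)), hwo, pow_two,
      Nat.mul_div_cancel_left _ hrpos]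
  have hzN : w ^ r ∈ N := hord _ hzo
  have hNz : Subgroup.zpowers (w ^ r) = N := by
    apply Subgroup.eq_of_le_of_card_ge ((Subgroup.zpowers_le).mpr hzN)
    rw [Nat.card_zpowers, hzo, hN]
  -- elements of `N` commute with `w`
  have hNw : ∀ m ∈ N, Commute m w := by
    intro m hm
    rw [← hNz] at hm
    obtain ⟨i, rfl⟩ := Subgroup.mem_zpowers_iff.mp hm
    exact (((Commute.refl w).pow_left r).zpow_left i)
  -- `h` centralizes `w ^ r`
  have hhz : Commute h (w ^ r) := by
    have hm := hcomm h w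
    have hmw := hNw _ hm
    have e1 : h * w * h⁻¹ = (h * w * h⁻¹ * w⁻¹) * w := by group
    have e2 : h * w ^ r * h⁻¹ = w ^ r := by
      have e3 : h * w ^ r * h⁻¹ = (h * w * h⁻¹) ^ r := (conj_pow).symm
      rw [e3, e1, hmw.mul_pow, hNpow _ hm, one_mul]
    have e4 : h * w ^ r = w ^ r * h := by
      calc h * w ^ r = (h * w ^ r * h⁻¹) * h := by group
        _ = w ^ r * h := by rw [e2]
    exact e4
  have hhN : ∀ m ∈ N, Commute h m := by
    intro m hm
    rw [← hNz] at hm
    obtain ⟨i, rfl⟩ := Subgroup.mem_zpowers_iff.mp hm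
    exact hhz.zpow_right i
  -- the commutator with `x`
  have hm' := hcomm h x
  have hpw := pow_conj_eq h x _ rfl (hhN _ hm') (orderOf h)
  rw [pow_orderOf_eq_one, one_mul, mul_one] at hpw
  have hm1 : (h * x * h⁻¹ * x⁻¹) ^ orderOf h = 1 := by
    have e : (h * x * h⁻¹ * x⁻¹) ^ orderOf h * x = 1 * x := by rw [one_mul]; exact hpw.symm
    exact mul_right_cancel e
  have hd1 : orderOf (h * x * h⁻¹ * x⁻¹) ∣ orderOf h := orderOf_dvd_of_pow_eq_one hm1
  have hd2 : orderOf (h * x * h⁻¹ * x⁻¹) ∣ r := orderOf_dvd_of_pow_eq_one (hNpow _ hm')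
  have hone : orderOf (h * x * h⁻¹ * x⁻¹) = 1 := Nat.eq_one_of_dvd_coprimes hh hd1 hd2
  have hm0 : h * x * h⁻¹ * x⁻¹ = 1 := orderOf_eq_one_iff.mp hone
  calc h * x = (h * x * h⁻¹ * x⁻¹) * x * h := by group
    _ = x * h := by rw [hm0, one_mul]

end Cfsg.Agent.Lib.Helper48.ACSPLITB
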