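import Mathlib
import Cfsg.Agent.Lib.Helper68.FixStmt

/-!
# S4414 piece FIXV (helper68's call): a nonzero vector of the `lam`-eigenspace fixed by the
stabiliser of `lam`
-/

set_option autoImplicit false

namespace Cfsg.Agent.Lib.Helper48.FixFIXV

open Cfsg.Agent.Lib.Helper68.FixStmt

universe u v

section

variable {k : Type*} [Field k] {S : Type*} [Group S] {M : Type*} [AddCommGroup M] [Module k M]

/-- The stabiliser of `lam` in `H`. -/
def stabL (V H : Subgroup S) (hVn : V.Normal) (lam : S → k) : Subgroup S where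
  carrier := {h | h ∈ H ∧ ∀ v ∈ V, lam (h⁻¹ * v * h) = lam v}
  one_mem' := ⟨H.one_mem, fun v _ => by simp⟩
  mul_mem' := by
    rintro a b ⟨ha, ha'⟩ ⟨hb, hb'⟩
    refine ⟨H.mul_mem ha hb, fun v hv => ?_⟩
    have h1 : a⁻¹ * v * a ∈ V := by
      have h2 := hVn.conj_mem v hv a⁻¹
      rwa [inv_inv] at h2
    have e : (a * b)⁻¹ * v * (a * b) = b⁻¹ * (a⁻¹ * v * a) * b := by group
    rw [e, hb' _ h1, ha' v hv]
  inv_mem' := by
    rintro a ⟨ha, ha'⟩
    refine ⟨H.inv_mem ha, fun v hv => ?_⟩
    have h1 : a * v * a⁻¹ ∈ V := hVn.conj_mem v hv a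
    have h2 := ha' _ h1
    have e : a⁻¹ * (a * v * a⁻¹) * a = v := by group
    rw [e] at h2
    rw [inv_inv]; exact h2.symm

theorem mem_stabL (V H : Subgroup S) (hVn : V.Normal) (lam : S → k) (h : S) :
    h ∈ stabL V H hVn lam ↔ h ∈ H ∧ ∀ v ∈ V, lam (h⁻¹ * v * h) = lam v := Iff.rfl

/-- The `lam`-eigenspace of `V`, as an additive subgroup. -/
def eigL (ρ : Representation k S M) (V : Subgroup S) (lam : S → k) : AddSubgroup M where
  carrier := {m | ∀ v ∈ V, ρ v m = lam v • m}
  zero_mem' := fun v _ => by simp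
  add_mem' := by
    intro a b ha hb v hv
    rw [map_add, ha v hv, hb v hv, smul_add]
  neg_mem' := by
    intro a ha v hv
    rw [map_neg, ha v hv, smul_neg]

/-- The orbit of `w` under the stabiliser. -/
def orbL (ρ : Representation k S M) (V H : Subgroup S) (hVn : V.Normal) (lam : S → k) (w : M) :
    Set M :=
  Set.range (fun t : stabL V H hVn lam => ρ (t : S) w)

/-- The additive subgroup generated by the orbit. -/
def genL (ρ : Representation k S M) (V H : Subgroup S) (hVn : V.Normal) (lam : S → k) (w : M) :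
    AddSubgroup M :=
  AddSubgroup.closure (orbL ρ V H hVn lam w)

theorem genL_le_eigL (ρ : Representation k S M) (V H : Subgroup S) (hVn : V.Normal) (lam : S → k)
    (w : M) (hlam : ∀ v ∈ V, ρ v w = lam v • w) :
    genL ρ V H hVn lam w ≤ eigL ρ V lam := by
  rw [genL, AddSubgroup.closure_le]
  rintro _ ⟨t, rfl⟩ v hv
  have ht := t.2.2
  have h1 : (t : S)⁻¹ * v * (t : S) ∈ V := by
    have h2 := hVn.conj_mem v hv (t : S)⁻¹
    rwa [inv_inv] at h2
  have e : v * (t : S) = (t : S) * ((t : S)⁻¹ * v * (t : S)) := by group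
  show ρ v (ρ (t : S) w) = lam v • ρ (t : S) w
  rw [← Module.End.mul_apply, ← map_mul, e, map_mul, Module.End.mul_apply, hlam _ h1, map_smul,
    ht v hv]

theorem smul_mem_genL (ρ : Representation k S M) (V H : Subgroup S) (hVn : V.Normal) (lam : S → k)
    (w : M) (t : S) (ht : t ∈ stabL V H hVn lam) (m : M) (hm : m ∈ genL ρ V H hVn lam w) :
    ρ t m ∈ genL ρ V H hVn lam w := by
  unfold genL at hm ⊢
  induction hm using AddSubgroup.closure_induction with
  | mem x hx =>
    obtain ⟨s, rfl⟩ := hx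
    apply AddSubgroup.subset_closure
    refine ⟨⟨t * s, Subgroup.mul_mem _ ht s.2⟩, ?_⟩
    show ρ (t * (s : S)) w = ρ t (ρ (s : S) w)
    rw [map_mul, Module.End.mul_apply]
  | zero => rw [map_zero]; exact AddSubgroup.zero_mem _
  | add x y _ _ hx hy => rw [map_add]; exact AddSubgroup.add_mem _ hx hy
  | neg x _ hx => rw [map_neg]; exact AddSubgroup.neg_mem _ hx

theorem add_self_zero [CharP k 2] (m : M) : m + m = 0 := by
  have h2 : (2 : k) = 0 := CharTwo.two_eq_zero
  have : m + m = (2 : k) • m := by rw [two_smul]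
  rw [this, h2, zero_smul]

theorem finite_genL [CharP k 2] [Finite S] (ρ : Representation k S M) (V H : Subgroup S)
    (hVn : V.Normal) (lam : S → k) (w : M) : Finite (genL ρ V H hVn lam w) := by
  have hfin : Finite (orbL ρ V H hVn lam w) := by
    unfold orbL
    exact Set.finite_range _
  have hfg : AddGroup.FG (genL ρ V H hVn lam w) := by
    unfold genL
    exact AddGroup.closure_finite_fg _
  apply AddCommGroup.finite_of_fg_isAddTorsion
  intro x
  rw [isOfFinAddOrder_iff_nsmul_eq_zero]
  refine ⟨2, by norm_num, ?_⟩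
  rw [two_nsmul]
  apply Subtype.ext
  exact add_self_zero (k := k) (x : M)

/-- The action of the stabiliser on the generated additive subgroup. -/
@[reducible] def actL (ρ : Representation k S M) (V H : Subgroup S) (hVn : V.Normal) (lam : S → k) (w : M) :
    MulAction (stabL V H hVn lam) (genL ρ V H hVn lam w) where
  smul t m := ⟨ρ (t : S) (m : M), smul_mem_genL ρ V H hVn lam w t t.2 m m.2⟩
  one_smul m := by
    apply Subtype.ext
    show ρ ((1 : stabL V H hVn lam) : S) (m : M) = m
    simp
  mul_smul a b m := by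
    apply Subtype.ext
    show ρ ((a * b : stabL V H hVn lam) : S) (m : M) = ρ (a : S) (ρ (b : S) (m : M))
    rw [Subgroup.coe_mul, map_mul, Module.End.mul_apply]

end

theorem main : FIXV.{u, v} := by
  intro k _ _ S _ _ M _ _ ρ V H lam w q a hVn hq hq2 hH hw hlam hno
  have hfact : Fact q.Prime := ⟨hq⟩
  have h2fact : Fact (Nat.Prime 2) := ⟨Nat.prime_two⟩
  -- the stabiliser is a 2-group
  have hTH : stabL V H hVn lam ≤ H := fun h hh => hh.1
  have hTq : ¬ q ∣ Nat.card (stabL V H hVn lam) := by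
    intro hdvd
    obtain ⟨y, hy⟩ := exists_prime_orderOf_dvd_card' q hdvd
    have hy' : orderOf (y : S) = q := by rw [Subgroup.orderOf_coe]; exact hy
    exact hno (y : S) y.2.1 hy' y.2.2
  have hT2 : IsPGroup 2 (stabL V H hVn lam) := by
    have h1 : Nat.card (stabL V H hVn lam) ∣ 2 ^ a * q := by
      rw [← hH]; exact Subgroup.card_dvd_of_le hTH
    have hcop : Nat.Coprime (Nat.card (stabL V H hVn lam)) q :=
      (Nat.Coprime.symm ((Nat.Prime.coprime_iff_not_dvd hq).mpr hTq))
    have h2 : Nat.card (stabL V H hVn lam) ∣ 2 ^ a := hcop.dvd_of_dvd_mul_right h1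
    obtain ⟨j, -, hj⟩ := (Nat.dvd_prime_pow Nat.prime_two).mp h2
    exact IsPGroup.of_card hj
  -- the action
  have hfin : Finite (genL ρ V H hVn lam w) := finite_genL ρ V H hVn lam w
  let act : MulAction (stabL V H hVn lam) (genL ρ V H hVn lam w) := actL ρ V H hVn lam w
  have hwA : w ∈ genL ρ V H hVn lam w := by
    apply AddSubgroup.subset_closure
    refine ⟨1, ?_⟩
    show ρ ((1 : stabL V H hVn lam) : S) w = w
    simp
  have h2dvd : 2 ∣ Nat.card (genL ρ V H hVn lam w) := by
    have ho : addOrderOf (⟨w, hwA⟩ : genL ρ V H hVn lam w) = 2 := by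
      apply addOrderOf_eq_prime
      · rw [two_nsmul]
        apply Subtype.ext
        exact add_self_zero (k := k) w
      · intro h0
        exact hw (congrArg Subtype.val h0)
    rw [← ho]
    exact addOrderOf_dvd_natCard _
  have h0 : (0 : genL ρ V H hVn lam w) ∈ MulAction.fixedPoints (stabL V H hVn lam)
      (genL ρ V H hVn lam w) := by
    intro t
    apply Subtype.ext
    show ρ (t : S) ((0 : genL ρ V H hVn lam w) : M) = ((0 : genL ρ V H hVn lam w) : M)
    simp
  obtain ⟨b, hb, hb0⟩ := hT2.exists_fixed_point_of_prime_dvd_card_of_fixed_point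
    (genL ρ V H hVn lam w) h2dvd h0
  refine ⟨(b : M), ?_, ?_, ?_⟩
  · intro hb1
    apply hb0
    apply Subtype.ext
    exact hb1.symm
  · exact genL_le_eigL ρ V H hVn lam w hlam b.2
  · intro h hh hstab
    have := hb ⟨h, hh, hstab⟩
    exact congrArg Subtype.val this

end Cfsg.Agent.Lib.Helper48.FixFIXV
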