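import Mathlib
import Cfsg.Prelude.Def_LocalEven
import Cfsg.Prelude.Def_Transfer
import Cfsg.Prelude.Def_Solvable
import Cfsg.Agent.Lib.Helper33.Conj
import Cfsg.Agent.Lib.Helper62.Wielandt
import Cfsg.Agent.Lib.Helper76.SylowTools
import Cfsg.Agent.Lib.Helper97.PReduced2
import Cfsg.Agent.Lib.Helper86.GroupAux
import Cfsg.Agent.Lib.Helper34.PResidual
import Cfsg.Agent.Lib.Helper48.Large2

/-!
# `p`-minimal groups: basic structure

`P` is `p`-minimal when a Sylow `p`-subgroup `S` is not normal and lies in a unique maximal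
subgroup `M`.  General lemmas used for the structure statements (S2905, S2906).
-/

set_option autoImplicit false
open Subgroup

namespace Cfsg.Agent.Lib.Helper48.PMin

/-- Elements of order prime to `q` in `N Q`, `Q` a `q`-group normalizing `N`, lie in `N`. -/
lemma mem_of_mem_sup_of_coprime {G : Type*} [Group G] {q : ℕ} {N Q : Subgroup G}
    (hQ : IsPGroup q Q) (hQN : Q ≤ normalizer (N : Set G)) {g : G} (hg : g ∈ N ⊔ Q)
    (hc : (orderOf g).Coprime q) : g ∈ N := by
  rw [sup_comm] at hg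
  obtain ⟨a, ha, b, hb, rfl⟩ := Cfsg.Agent.Lib.Helper86.GroupAux.exists_mul_of_mem_sup hQN hg
  obtain ⟨k, hk⟩ := hQ ⟨a, ha⟩
  have hk' : a ^ q ^ k = 1 := by simpa using congrArg Subtype.val hk
  obtain ⟨c', hc', hpow⟩ := Cfsg.Agent.Lib.Helper48.Large2.pow_mul_mem (hQN ha) hb (q ^ k)
  have h1 : (a * b) ^ q ^ k ∈ N := by rw [hpow, hk', one_mul]; exact hc'
  obtain ⟨m, hm⟩ := exists_pow_eq_self_of_coprime (Nat.Coprime.pow_right k hc).symm
  rw [← hm]; exact N.pow_mem h1 m

/-- An element normalizing `A` and `B` normalizes `A ⊔ B`. -/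
lemma mem_normalizer_sup' {G : Type*} [Group G] {A B : Subgroup G} {g : G}
    (hA : g ∈ normalizer (A : Set G)) (hB : g ∈ normalizer (B : Set G)) :
    g ∈ normalizer ((A ⊔ B : Subgroup G) : Set G) := by
  rw [Cfsg.Agent.Lib.Helper33.Conj.mem_normalizer_iff_cj_eq] at hA hB ⊢
  rw [Subgroup.map_sup, hA, hB]

/-- A subgroup containing a full Sylow `q`-subgroup's worth of every prime is everything. -/
lemma eq_top_of_forall_pow_dvd {G : Type*} [Group G] [Finite G] (M : Subgroup G)
    (h : ∀ q : ℕ, q.Prime → q ^ (Nat.card G).factorization q ∣ Nat.card M) : M = ⊤ := by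
  have hM0 : Nat.card M ≠ 0 := Nat.card_pos.ne'
  have hdvd : Nat.card G ∣ Nat.card M := by
    rw [← Nat.factorization_prime_le_iff_dvd Nat.card_pos.ne' hM0]
    intro q hq
    exact (hq.pow_dvd_iff_le_factorization hM0).mp (h q hq)
  exact Subgroup.eq_top_of_le_card M (Nat.le_of_dvd Nat.card_pos hdvd)

/-- The image in `G` of a normal Sylow subgroup of a normal subgroup is normal in `G`. -/
lemma normal_map_of_sylow_normal {G : Type*} [Group G] [Finite G] {p : ℕ} [Fact p.Prime]
    (R : Subgroup G) [R.Normal] (T : Sylow p R) (hT : (T : Subgroup R).Normal) :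
    ((T : Subgroup R).map R.subtype).Normal := by
  have : (T : Subgroup R).Characteristic := Sylow.characteristic_of_normal T hT
  exact ConjAct.normal_of_characteristic_of_normal

/-- Invariant "Sylow" subgroups: if `R ⊴ G` contains all `p'`-elements and `T ⊴ G` is a Sylow
`p`-subgroup of `R`, then a Sylow `p`-subgroup `S` of `G` normalizes `T U` for some Sylow
`t`-subgroup `U` of `G` (`t ≠ p`). -/
lemma exists_invariant {G : Type*} [Group G] [Finite G] {p : ℕ} [Fact p.Prime]
    (R T : Subgroup G) [R.Normal] [hTn : T.Normal] (hTR : T ≤ R) (hT : ¬ p ∣ T.relIndex R)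
    (hR : ∀ g : G, (orderOf g).Coprime p → g ∈ R) {t : ℕ} [ht : Fact t.Prime] (htp : t ≠ p)
    (S : Sylow p G) :
    ∃ U : Subgroup G, IsPGroup t U ∧ Nat.card U = t ^ (Nat.card G).factorization t ∧
      (S : Subgroup G) ≤ normalizer ((T ⊔ U : Subgroup G) : Set G) := by
  have hp : p.Prime := Fact.out
  obtain ⟨U0⟩ : Nonempty (Sylow t G) := inferInstance
  have hU0R : (U0 : Subgroup G) ≤ R := by
    intro u hu
    apply hR
    obtain ⟨k, hk⟩ := (IsPGroup.iff_orderOf.mp U0.2) ⟨u, hu⟩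
    rw [Subgroup.orderOf_mk] at hk
    rw [hk]
    exact Nat.Coprime.pow_left k ((Nat.coprime_primes ht.out hp).mpr htp)
  have h1 := Sylow.normalizer_sup_eq_top (U0.subtype hU0R)
  rw [Sylow.coe_subtype, Subgroup.subgroupOf_map_subtype, inf_eq_left.mpr hU0R] at h1
  have hTtop : ∀ g : G, g ∈ normalizer (T : Set G) := by
    intro g
    rw [normalizer_eq_top]
    exact mem_top g
  have hle : normalizer ((U0 : Subgroup G) : Set G) ≤
      normalizer ((T ⊔ (U0 : Subgroup G) : Subgroup G) : Set G) := fun g hg =>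
    mem_normalizer_sup' (hTtop g) hg
  have hsup : normalizer ((T ⊔ (U0 : Subgroup G) : Subgroup G) : Set G) ⊔ R = ⊤ :=
    top_le_iff.mp (h1 ▸ sup_le_sup_right hle R)
  have hidx : (normalizer ((T ⊔ (U0 : Subgroup G) : Subgroup G) : Set G)).index =
      (normalizer ((T ⊔ (U0 : Subgroup G) : Subgroup G) : Set G)).relIndex R := by
    rw [← relIndex_top_right, ← hsup, Cfsg.Agent.Lib.Helper76.SylowTools.relIndex_sup_of_normal]
  have hTN : T ≤ normalizer ((T ⊔ (U0 : Subgroup G) : Subgroup G) : Set G) :=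
    le_sup_left.trans le_normalizer
  have hnd : ¬ p ∣ (normalizer ((T ⊔ (U0 : Subgroup G) : Subgroup G) : Set G)).index := by
    rw [hidx]
    exact fun h => hT (h.trans (relIndex_dvd_of_le_left R hTN))
  obtain ⟨S', hS'⟩ := Cfsg.Agent.Lib.Helper76.SylowTools.exists_sylow_le_of_not_dvd_index _ hnd
  obtain ⟨g, hg⟩ := Cfsg.Agent.Lib.Helper33.Conj.exists_cj_le_sylow S' S.2
  refine ⟨(U0 : Subgroup G).map (MulAut.conj g⁻¹).toMonoidHom,
    Cfsg.Agent.Lib.Helper33.Conj.isPGroup_cj _ U0.2, ?_, ?_⟩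
  · rw [Cfsg.Agent.Lib.Helper33.Conj.card_cj, U0.card_eq_multiplicity]
  · intro s hs
    have h2 : g * s * g⁻¹ ∈ normalizer ((T ⊔ (U0 : Subgroup G) : Subgroup G) : Set G) :=
      hS' (hg (Cfsg.Agent.Lib.Helper33.Conj.conj_mem_cj hs))
    have h3 : s ∈ (normalizer ((T ⊔ (U0 : Subgroup G) : Subgroup G) : Set G)).map
        (MulAut.conj g⁻¹).toMonoidHom := by
      rw [Cfsg.Agent.Lib.Helper33.Conj.mem_cj]
      simpa using h2
    rw [← Cfsg.Agent.Lib.Helper33.Conj.normalizer_cj, Subgroup.map_sup,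
      Cfsg.Agent.Lib.Helper34.PResidual.map_conj_eq_of_mem_normalizer T g⁻¹ (hTtop _)] at h3
    exact h3

section pmin

variable {P : Type*} [Group P] [Finite P] {p : ℕ}

/-- A proper subgroup containing `S` lies in `M`. -/
lemma le_coatom (hP : Cfsg.IsPMinimal p P) (S : Sylow p P) {M : Subgroup P} (hM : IsCoatom M)
    (hSM : (S : Subgroup P) ≤ M) {X : Subgroup P} (hSX : (S : Subgroup P) ≤ X) (hX : X ≠ ⊤) :
    X ≤ M := by
  obtain ⟨M', hM', hXM'⟩ := (eq_top_or_exists_le_coatom X).resolve_left hX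
  have h := (hP S).2.unique ⟨hM', hSX.trans hXM'⟩ ⟨hM, hSM⟩
  exact h ▸ hXM'

/-- A subgroup not inside `M` generates `P` together with `S`. -/
lemma sup_eq_top_of_not_le (hP : Cfsg.IsPMinimal p P) (S : Sylow p P) {M : Subgroup P}
    (hM : IsCoatom M) (hSM : (S : Subgroup P) ≤ M) {X : Subgroup P} (hX : ¬ X ≤ M) :
    X ⊔ (S : Subgroup P) = ⊤ := by
  by_contra h
  exact hX (le_sup_left.trans (le_coatom hP S hM hSM le_sup_right h))

/-- If `N S = P` with `S` normalizing `N`, then `O^p(P) ≤ N`. -/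
lemma pResidual_le_of_sup_eq_top (S : Sylow p P) {N : Subgroup P}
    (hSN : (S : Subgroup P) ≤ normalizer (N : Set P)) (h : N ⊔ (S : Subgroup P) = ⊤) :
    Cfsg.pResidual p P ≤ N := by
  unfold Cfsg.pResidual
  rw [Subgroup.closure_le]
  intro g hg
  exact mem_of_mem_sup_of_coprime S.2 hSN (h ▸ mem_top g) hg

/-- A normal subgroup either contains `O^p(P)` or lies in the core of `M`. -/
lemma normal_dichotomy (hP : Cfsg.IsPMinimal p P) (S : Sylow p P) {M : Subgroup P}
    (hM : IsCoatom M) (hSM : (S : Subgroup P) ≤ M) (N : Subgroup P) (hN : N.Normal) :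
    Cfsg.pResidual p P ≤ N ∨ N ≤ M.normalCore := by
  by_cases h : N ≤ M
  · exact Or.inr (Subgroup.normal_le_normalCore.mpr h)
  · left
    apply pResidual_le_of_sup_eq_top S _ (sup_eq_top_of_not_le hP S hM hSM h)
    rw [normalizer_eq_top]
    exact le_top

/-- `O^p(P) S = P`. -/
lemma pResidual_sup_sylow [Fact p.Prime] (S : Sylow p P) :
    Cfsg.pResidual p P ⊔ (S : Subgroup P) = ⊤ := by
  have := Cfsg.Agent.Lib.Helper34.PResidual.pResidual_normal p P
  rw [sup_comm]
  exact Cfsg.Agent.Lib.Helper48.Large2.sylow_sup_eq_top (Cfsg.pResidual p P)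
    (fun g => Cfsg.Agent.Lib.Helper34.PResidual.exists_pow_mem_pResidual Fact.out g) S

/-- `O^p(P)` is not contained in `M`. -/
lemma pResidual_not_le [Fact p.Prime] (S : Sylow p P) {M : Subgroup P}
    (hM : IsCoatom M) (hSM : (S : Subgroup P) ≤ M) : ¬ Cfsg.pResidual p P ≤ M := by
  intro h
  exact hM.1 (top_le_iff.mp ((pResidual_sup_sylow S).symm ▸ sup_le h hSM))

/-- An `S`-invariant subnormal subgroup inside `M` lies in the core of `M`. -/
lemma le_normalCore_of_invariant (hP : Cfsg.IsPMinimal p P) (S : Sylow p P) {M : Subgroup P}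
    (hM : IsCoatom M) (hSM : (S : Subgroup P) ≤ M) {X : Subgroup P} (hX : X.IsSubnormal)
    (hSX : (S : Subgroup P) ≤ normalizer (X : Set P)) (hXM : X ≤ M) : X ≤ M.normalCore := by
  set X1 : Subgroup P := normalClosure (X : Set P) with hX1
  have hX1n : X1.Normal := Subgroup.normalClosure_normal
  have hXX1 : X ≤ X1 := Subgroup.le_normalClosure
  by_cases h : X1 ≤ M
  · exact hXX1.trans (Subgroup.normal_le_normalCore.mpr h)
  · exfalso
    have htop : X1 ⊔ (S : Subgroup P) = ⊤ := sup_eq_top_of_not_le hP S hM hSM h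
    have hsub : (X.subgroupOf X1).IsSubnormal := hX.subgroupOf
    have hne : X.subgroupOf X1 ≠ ⊤ := by
      intro he
      rw [Subgroup.subgroupOf_eq_top] at he
      exact h (he.trans hXM)
    obtain ⟨K, hKn, hXK, hKlt⟩ := hsub.exists_normal_and_le_and_lt_top_of_ne hne
    have hle : X1 ≤ K.map X1.subtype := by
      refine (show Subgroup.closure (Group.conjugatesOfSet (X : Set P)) ≤ K.map X1.subtype from ?_)
      rw [Subgroup.closure_le]
      intro a ha
      rw [Group.mem_conjugatesOfSet_iff] at ha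
      obtain ⟨b, hb, hba⟩ := ha
      rw [isConj_iff] at hba
      obtain ⟨c, rfl⟩ := hba
      have hc : c ∈ ((X1 ⊔ (S : Subgroup P) : Subgroup P) : Set P) := by
        rw [htop]; exact Set.mem_univ c
      rw [Subgroup.normal_mul] at hc
      obtain ⟨k, hk, s, hs, rfl⟩ := Set.mem_mul.mp hc
      have hsb : s * b * s⁻¹ ∈ X := by
        have := (Subgroup.mem_normalizer_iff.mp (hSX hs) b).mp hb
        exact this
      have hmem : (⟨s * b * s⁻¹, hXX1 hsb⟩ : X1) ∈ K := hXK (Subgroup.mem_subgroupOf.mpr hsb)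
      have hmem2 := hKn.conj_mem _ hmem ⟨k, hk⟩
      refine ⟨_, hmem2, ?_⟩
      simp only [Subgroup.coe_subtype, Subgroup.coe_mul, Subgroup.coe_inv]
      group
    apply hKlt.ne
    rw [eq_top_iff]
    intro y _
    obtain ⟨z, hz, hzy⟩ := hle y.2
    have : z = y := Subtype.ext hzy
    exact this ▸ hz

/-- A subnormal subgroup inside `M` lies in the core of `M`. -/
lemma le_normalCore_of_subnormal (hP : Cfsg.IsPMinimal p P) (S : Sylow p P) {M : Subgroup P}
    (hM : IsCoatom M) (hSM : (S : Subgroup P) ≤ M) {N : Subgroup P} (hN : N.IsSubnormal)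
    (hNM : N ≤ M) : N ≤ M.normalCore := by
  set X : Subgroup P := ⨆ s : (S : Subgroup P), N.map (MulAut.conj (s : P)).toMonoidHom with hXdef
  have hXsub : X.IsSubnormal := by
    apply Cfsg.Agent.Lib.Helper62.Wielandt.iSup_isSubnormal
    intro s
    exact hN.map (MulAut.conj (s : P)).surjective
  have hXM : X ≤ M := by
    apply iSup_le
    intro s
    rintro _ ⟨x, hx, rfl⟩
    exact M.mul_mem (M.mul_mem (hSM s.2) (hNM hx)) (M.inv_mem (hSM s.2))
  have hNX : N ≤ X := by
    have h1 : N.map (MulAut.conj ((1 : (S : Subgroup P)) : P)).toMonoidHom ≤ X :=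
      le_iSup (fun s : (S : Subgroup P) => N.map (MulAut.conj (s : P)).toMonoidHom) 1
    rwa [OneMemClass.coe_one, Cfsg.Agent.Lib.Helper33.Conj.cj_one] at h1
  have hSX : (S : Subgroup P) ≤ normalizer (X : Set P) := by
    intro s hs
    apply Cfsg.Agent.Lib.Helper76.SylowTools.le_normalizer_of_conj_mem (zpowers s) X _
      (Subgroup.mem_zpowers s)
    intro x hx g hg
    have hxS : x ∈ (S : Subgroup P) := (Subgroup.zpowers_le.mpr hs) hx
    have h1 : X.map (MulAut.conj x).toMonoidHom ≤ X := by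
      rw [hXdef, Subgroup.map_iSup]
      apply iSup_le
      intro s'
      rw [Cfsg.Agent.Lib.Helper33.Conj.cj_cj]
      exact le_iSup (fun s : (S : Subgroup P) => N.map (MulAut.conj (s : P)).toMonoidHom)
        (⟨x, hxS⟩ * s')
    exact h1 (Cfsg.Agent.Lib.Helper33.Conj.conj_mem_cj hg)
  exact hNX.trans (le_normalCore_of_invariant hP S hM hSM hXsub hSX hXM)

/-- `S ∩ core(M)` is normal in `P`. -/
lemma sylow_inf_normalCore_normal [Fact p.Prime] (hP : Cfsg.IsPMinimal p P) (S : Sylow p P)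
    {M : Subgroup P} (hM : IsCoatom M) (hSM : (S : Subgroup P) ≤ M) :
    ((S : Subgroup P) ⊓ M.normalCore).Normal := by
  have : M.normalCore.Normal := Subgroup.normalCore_normal M
  have h1 : (S : Subgroup P) ≤ normalizer (((S : Subgroup P) ⊓ M.normalCore : Subgroup P) : Set P) :=
    Cfsg.Agent.Lib.Helper97.PReduced2.sylow_le_normalizer_inf S M.normalCore
  have h2 : normalizer (((S : Subgroup P) ⊓ M.normalCore : Subgroup P) : Set P) = ⊤ := by
    by_contra hne
    have h3 := le_coatom hP S hM hSM h1 hne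
    apply hM.1
    rw [eq_top_iff]
    intro g _
    obtain ⟨a, ha, c, hc, rfl⟩ :=
      Cfsg.Agent.Lib.Helper97.PReduced2.frattini_inf S M.normalCore g
    exact M.mul_mem (h3 ha) (Subgroup.normalCore_le M hc)
  exact normalizer_eq_top_iff.mp h2

/-- Part (1): subnormal subgroups inside `M` meet `S` inside `O_p(P)`. -/
theorem subnormal_inf_le_pCore [Fact p.Prime] (hP : Cfsg.IsPMinimal p P) (S : Sylow p P)
    {M : Subgroup P} (hM : IsCoatom M) (hSM : (S : Subgroup P) ≤ M) {N : Subgroup P}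
    (hN : N.IsSubnormal) (hNM : N ≤ M) : N ⊓ (S : Subgroup P) ≤ Cfsg.pCore p P := by
  have h1 : N ⊓ (S : Subgroup P) ≤ (S : Subgroup P) ⊓ M.normalCore :=
    le_inf inf_le_right (inf_le_left.trans (le_normalCore_of_subnormal hP S hM hSM hN hNM))
  refine h1.trans (le_sSup ⟨sylow_inf_normalCore_normal hP S hM hSM, S.2.to_le inf_le_left⟩)

/-- Part (2): if `O^p(P)` has a normal Sylow `p`-subgroup, then `|P|` has at most two prime
divisors; more precisely all prime divisors are `p` or one further prime `t`. -/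
theorem exists_prime_of_sylow_normal [hp : Fact p.Prime] (hP : Cfsg.IsPMinimal p P)
    (S : Sylow p P) {M : Subgroup P} (hM : IsCoatom M) (hSM : (S : Subgroup P) ≤ M)
    (hT : ∀ T : Sylow p ↥(Cfsg.pResidual p P), (T : Subgroup ↥(Cfsg.pResidual p P)).Normal) :
    ∃ t : ℕ, t.Prime ∧ ∀ q : ℕ, q.Prime → q ∣ Nat.card P → q = p ∨ q = t := by
  have hRn := Cfsg.Agent.Lib.Helper34.PResidual.pResidual_normal p P
  obtain ⟨T⟩ : Nonempty (Sylow p ↥(Cfsg.pResidual p P)) := inferInstance
  have hT'n : ((T : Subgroup ↥(Cfsg.pResidual p P)).map (Cfsg.pResidual p P).subtype).Normal :=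
    normal_map_of_sylow_normal _ T (hT T)
  set T' : Subgroup P := (T : Subgroup ↥(Cfsg.pResidual p P)).map (Cfsg.pResidual p P).subtype
    with hT'
  have hT'p : IsPGroup p T' := T.2.map _
  have hT'R : T' ≤ Cfsg.pResidual p P := Subgroup.map_subtype_le _
  have hidx : ¬ p ∣ T'.relIndex (Cfsg.pResidual p P) := by
    have : T'.subgroupOf (Cfsg.pResidual p P) = T := by
      rw [hT', Subgroup.subgroupOf]
      exact Subgroup.comap_map_eq_self_of_injective (Subgroup.subtype_injective _) _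
    rw [Subgroup.relIndex, this]
    exact T.not_dvd_index
  have hRmem : ∀ g : P, (orderOf g).Coprime p → g ∈ Cfsg.pResidual p P := fun g hg =>
    Subgroup.subset_closure hg
  have hTtop : ∀ g : P, g ∈ normalizer (T' : Set P) := by
    intro g
    rw [normalizer_eq_top]
    exact mem_top g
  have key : ∃ t : ℕ, t.Prime ∧ t ≠ p ∧ ∃ U : Subgroup P, IsPGroup t U ∧
      (S : Subgroup P) ≤ normalizer ((T' ⊔ U : Subgroup P) : Set P) ∧
      (T' ⊔ U) ⊔ (S : Subgroup P) = ⊤ := by
    by_contra hcon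
    apply hM.1
    apply eq_top_of_forall_pow_dvd
    intro q hq
    by_cases hqp : q = p
    · subst hqp
      rw [← S.card_eq_multiplicity]
      exact Subgroup.card_dvd_of_le hSM
    · have : Fact q.Prime := ⟨hq⟩
      obtain ⟨U, hU, hUc, hSU⟩ := exists_invariant (Cfsg.pResidual p P) T' hT'R hidx hRmem hqp S
      have hne : (T' ⊔ U) ⊔ (S : Subgroup P) ≠ ⊤ := fun h =>
        hcon ⟨q, hq, hqp, U, hU, hSU, h⟩
      have hle := le_coatom hP S hM hSM le_sup_right hne
      rw [← hUc]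
      exact Subgroup.card_dvd_of_le ((le_sup_right.trans le_sup_left).trans hle)
  obtain ⟨t, ht, htp, U, hU, hSU, htop⟩ := key
  refine ⟨t, ht, ?_⟩
  intro q hq hqd
  by_contra hcon
  rw [not_or] at hcon
  have : Fact q.Prime := ⟨hq⟩
  obtain ⟨w, hw⟩ := exists_prime_orderOf_dvd_card' q hqd
  have h1 : w ∈ T' ⊔ U :=
    mem_of_mem_sup_of_coprime S.2 hSU (htop ▸ mem_top w)
      (hw ▸ (Nat.coprime_primes hq hp.out).mpr hcon.1)
  have h2 : w ∈ T' :=
    mem_of_mem_sup_of_coprime hU (fun u _ => hTtop u) h1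
      (hw ▸ (Nat.coprime_primes hq ht).mpr hcon.2)
  obtain ⟨k, hk⟩ := hT'p ⟨w, h2⟩
  have hk' : w ^ p ^ k = 1 := by simpa using congrArg Subtype.val hk
  have h3 : q ∣ p ^ k := hw ▸ orderOf_dvd_of_pow_eq_one hk'
  exact hcon.1 ((Nat.prime_dvd_prime_iff_eq hq hp.out).mp (hq.dvd_of_dvd_pow h3))

end pmin

end Cfsg.Agent.Lib.Helper48.PMin
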