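import Mathlib
import Cfsg.Prelude.Def_Local
import Cfsg.Agent.Lib.Helper21.Quasi
import Cfsg.Agent.Lib.Helper21.Comp
import Cfsg.Agent.Lib.Helper78.Fitting
import Cfsg.Agent.Lib.Helper62.SylowSubn
import Cfsg.Agent.Lib.Helper31.SigBasic
import Cfsg.Agent.Lib.Helper48.CharP
import Cfsg.Agent.Lib.Helper48.PMin

/-!
# `p`-minimal groups with `O_p(P) = 1` and a component

`O^p(P) = F*(P) = E(P) = ⟨K^S⟩` and `K N_S(K)` is `p`-minimal (S2906).
-/

set_option autoImplicit false
open Subgroup

namespace Cfsg.Agent.Lib.Helper48.PMin2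

/-- `p`-minimality can be checked on a single Sylow `p`-subgroup. -/
lemma isPMinimal_of_exists {G : Type*} [Group G] [Finite G] {p : ℕ} [Fact p.Prime]
    (S0 : Sylow p G) (hn : ¬ (S0 : Subgroup G).Normal)
    (hu : ∃! M : Subgroup G, IsCoatom M ∧ (S0 : Subgroup G) ≤ M) : Cfsg.IsPMinimal p G := by
  intro S
  obtain ⟨g, hg⟩ := MulAction.exists_smul_eq G S0 S
  have hS : (S : Subgroup G) = (S0 : Subgroup G).map (MulAut.conj g).toMonoidHom := by
    rw [← hg]; rfl
  constructor
  · intro hSn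
    apply hn
    have h1 : g⁻¹ • S = S := Sylow.smul_eq_of_normal
    have h2 : S0 = S := by rw [← h1, ← hg, inv_smul_smul]
    rw [h2]; exact hSn
  · obtain ⟨M, ⟨hM, hSM⟩, huniq⟩ := hu
    have hco : ∀ (x : G) (A : Subgroup G), IsCoatom A →
        IsCoatom (A.map (MulAut.conj x).toMonoidHom) := fun x A hA =>
      ((MulEquiv.mapSubgroup (MulAut.conj x)).isCoatom_iff A).mpr hA
    refine ⟨M.map (MulAut.conj g).toMonoidHom, ⟨hco g M hM, ?_⟩, ?_⟩
    · rw [hS]; exact Subgroup.map_mono hSM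
    · rintro M' ⟨hM', hSM'⟩
      have h1 := huniq (M'.map (MulAut.conj g⁻¹).toMonoidHom) ⟨hco g⁻¹ M' hM', by
        have := Subgroup.map_mono (f := (MulAut.conj g⁻¹).toMonoidHom) hSM'
        rwa [hS, Cfsg.Agent.Lib.Helper33.Conj.cj_inv_cj] at this⟩
      rw [← h1, Cfsg.Agent.Lib.Helper33.Conj.cj_cj_inv]

/-- The join of the `S`-conjugates of a subgroup is `S`-invariant. -/
lemma le_normalizer_iSup_conj {G : Type*} [Group G] (S N : Subgroup G) :
    S ≤ normalizer ((⨆ s : S, N.map (MulAut.conj (s : G)).toMonoidHom : Subgroup G) : Set G) := by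
  apply Cfsg.Agent.Lib.Helper76.SylowTools.le_normalizer_of_conj_mem
  intro x hx g hg
  have h1 : (⨆ s : S, N.map (MulAut.conj (s : G)).toMonoidHom).map (MulAut.conj x).toMonoidHom ≤
      ⨆ s : S, N.map (MulAut.conj (s : G)).toMonoidHom := by
    rw [Subgroup.map_iSup]
    apply iSup_le
    intro s'
    rw [Cfsg.Agent.Lib.Helper33.Conj.cj_cj]
    exact le_iSup (fun s : S => N.map (MulAut.conj (s : G)).toMonoidHom) (⟨x, hx⟩ * s')
  exact h1 (Cfsg.Agent.Lib.Helper33.Conj.conj_mem_cj hg)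

/-- `|A K : A| = |K : A ∩ K|` when `A` normalizes `K`. -/
lemma relIndex_sup_of_le_normalizer {G : Type*} [Group G] [Finite G] (A K : Subgroup G)
    (h : A ≤ normalizer (K : Set G)) : A.relIndex (A ⊔ K) = A.relIndex K := by
  have hK : K ≤ normalizer (K : Set G) := le_normalizer
  have h1 := Cfsg.Agent.Lib.Helper76.SylowTools.relIndex_sup_of_normal
    (A.subgroupOf (normalizer (K : Set G))) (K.subgroupOf (normalizer (K : Set G)))
  rw [← Subgroup.subgroupOf_sup h hK, Subgroup.relIndex_subgroupOf (sup_le h hK),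
    Subgroup.relIndex_subgroupOf hK] at h1
  exact h1

/-- A perfect subgroup lies in `O^p`. -/
lemma le_pResidual_of_perfect {P : Type*} [Group P] [Finite P] {p : ℕ} [hp : Fact p.Prime]
    {L : Subgroup P} (hL : Group.IsPerfect L) : L ≤ Cfsg.pResidual p P := by
  have hRn := Cfsg.Agent.Lib.Helper34.PResidual.pResidual_normal p P
  have hq : IsPGroup p (P ⧸ Cfsg.pResidual p P) := by
    intro x
    obtain ⟨g, rfl⟩ := QuotientGroup.mk_surjective x
    obtain ⟨k, hk⟩ := Cfsg.Agent.Lib.Helper34.PResidual.exists_pow_mem_pResidual hp.out g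
    refine ⟨k, ?_⟩
    rw [← QuotientGroup.mk_pow]
    exact (QuotientGroup.eq_one_iff _).mpr hk
  have hnil : Group.IsNilpotent (P ⧸ Cfsg.pResidual p P) := hq.isNilpotent
  have hsol : Group.IsSolvable (P ⧸ Cfsg.pResidual p P) := IsNilpotent.to_isSolvable
  let φ : L →* P ⧸ Cfsg.pResidual p P := (QuotientGroup.mk' (Cfsg.pResidual p P)).comp L.subtype
  have hperf : Group.IsPerfect φ.range := Group.IsPerfect.range φ
  have hsub : Subsingleton φ.range := by
    by_contra hns
    rw [not_subsingleton_iff_nontrivial] at hns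
    exact Group.IsPerfect.not_isSolvable φ.range inferInstance
  intro l hl
  have h1 : (⟨φ ⟨l, hl⟩, MonoidHom.mem_range.mpr ⟨_, rfl⟩⟩ : φ.range) = 1 := Subsingleton.elim _ _
  have h2 : φ ⟨l, hl⟩ = 1 := congrArg Subtype.val h1
  exact (QuotientGroup.eq_one_iff l).mp h2

/-- With `O_p(P) = 1`, the Fitting subgroup lies in `O^p(P)`. -/
lemma fitting_le_pResidual {P : Type*} [Group P] [Finite P] {p : ℕ} [hp : Fact p.Prime]
    (hOp : Cfsg.pCore p P = ⊥) : Cfsg.fittingSubgroup P ≤ Cfsg.pResidual p P := by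
  rw [Cfsg.Agent.Lib.Helper78.Fitting.fitting_eq_iSup_pCore]
  apply iSup_le
  intro q
  by_cases hq : (q : ℕ) = p
  · rw [hq, hOp]; exact bot_le
  · intro x hx
    have : Fact (q : ℕ).Prime := ⟨q.2⟩
    obtain ⟨k, hk⟩ := (IsPGroup.iff_orderOf.mp
      (Cfsg.Agent.Lib.Helper78.Fitting.pCore_isPGroup (G := P) (q : ℕ))) ⟨x, hx⟩
    rw [Subgroup.orderOf_mk] at hk
    apply Subgroup.subset_closure
    show (orderOf x).Coprime p
    rw [hk]
    exact Nat.Coprime.pow_left k ((Nat.coprime_primes q.2 hp.out).mpr hq)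

section pmin

variable {P : Type*} [Group P] [Finite P] {p : ℕ} [hp : Fact p.Prime]

/-- With `O_p(P) = 1`, no component of the `p`-minimal group `P` lies in `M`. -/
lemma component_not_le (hP : Cfsg.IsPMinimal p P) (hOp : Cfsg.pCore p P = ⊥) (S : Sylow p P)
    {M : Subgroup P} (hM : IsCoatom M) (hSM : (S : Subgroup P) ≤ M) {K : Subgroup P}
    (hK : Cfsg.IsComponent K) : ¬ K ≤ M := by
  intro hKM
  have hFn : M.normalCore.Normal := Subgroup.normalCore_normal M
  have hKF : K ≤ M.normalCore :=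
    Cfsg.Agent.Lib.Helper48.PMin.le_normalCore_of_subnormal hP S hM hSM hK.1 hKM
  have hSF : (S : Subgroup P) ⊓ M.normalCore = ⊥ := by
    rw [eq_bot_iff, ← hOp]
    exact le_sSup ⟨Cfsg.Agent.Lib.Helper48.PMin.sylow_inf_normalCore_normal hP S hM hSM,
      S.2.to_le inf_le_left⟩
  have hFc : (Nat.card M.normalCore).Coprime p := by
    have h1 := (Cfsg.Agent.Lib.Helper76.SylowTools.isSylowIn_inf_normal S M.normalCore).2.2
    rw [hSF, Subgroup.relIndex_bot_left] at h1
    exact ((Nat.Prime.coprime_iff_not_dvd hp.out).mpr h1).symm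
  have key : ∀ (r : ℕ) [Fact r.Prime], ∃ W : Subgroup P,
      Cfsg.Agent.Lib.Helper76.SylowTools.IsSylowIn r W M.normalCore ∧ W.Normal := by
    intro r _
    obtain ⟨W, hW, hSW⟩ := Cfsg.Agent.Lib.Helper76.SylowTools.exists_invariant_isSylowIn
      (p := r) (q := p) (S : Subgroup P) S.2 M.normalCore hFc
    refine ⟨W, hW, ?_⟩
    rw [← normalizer_eq_top_iff]
    by_contra hne
    have h3 := Cfsg.Agent.Lib.Helper48.PMin.le_coatom hP S hM hSM hSW hne
    apply hM.1
    rw [eq_top_iff]
    intro g _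
    have hWg : Cfsg.Agent.Lib.Helper76.SylowTools.IsSylowIn r
        (W.map (MulAut.conj g).toMonoidHom) M.normalCore := by
      have hFg : M.normalCore.map (MulAut.conj g).toMonoidHom = M.normalCore :=
        Cfsg.Agent.Lib.Helper34.PResidual.map_conj_eq_of_mem_normalizer _ g
          (by rw [normalizer_eq_top]; exact mem_top g)
      refine ⟨?_, Cfsg.Agent.Lib.Helper33.Conj.isPGroup_cj g hW.2.1, ?_⟩
      · rw [← hFg]; exact Subgroup.map_mono hW.1
      · rw [← hFg, Cfsg.Agent.Lib.Helper33.Conj.relIndex_cj]; exact hW.2.2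
    obtain ⟨m, hm, hmW⟩ := hW.exists_conj hWg
    have h4 : m⁻¹ * g ∈ normalizer (W : Set P) := by
      rw [Cfsg.Agent.Lib.Helper33.Conj.mem_normalizer_iff_cj_eq,
        ← Cfsg.Agent.Lib.Helper33.Conj.cj_cj, hmW, Cfsg.Agent.Lib.Helper33.Conj.cj_inv_cj]
    have h5 : g = m * (m⁻¹ * g) := by group
    rw [h5]
    exact M.mul_mem (Subgroup.normalCore_le M hm) (h3 h4)
  have hnil : Group.IsNilpotent M.normalCore := by
    apply ((Group.isNilpotent_of_finite_tfae (G := M.normalCore)).out 0 3).mpr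
    intro r hr Q
    obtain ⟨W, hW, hWn⟩ := key r
    have hQ' : Cfsg.Agent.Lib.Helper76.SylowTools.IsSylowIn r
        ((Q : Subgroup M.normalCore).map M.normalCore.subtype) M.normalCore := by
      refine ⟨Subgroup.map_subtype_le _, Q.2.map _, ?_⟩
      rw [Subgroup.relIndex, Subgroup.subgroupOf,
        Subgroup.comap_map_eq_self_of_injective (Subgroup.subtype_injective _)]
      exact Q.not_dvd_index
    obtain ⟨m, hm, hQW⟩ := hW.exists_conj hQ'
    rw [Cfsg.Agent.Lib.Helper34.PResidual.map_conj_eq_of_mem_normalizer W m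
      (by rw [normalizer_eq_top]; exact mem_top m)] at hQW
    have hQeq : (Q : Subgroup M.normalCore) = W.subgroupOf M.normalCore := by
      rw [← hQW, Subgroup.subgroupOf,
        Subgroup.comap_map_eq_self_of_injective (Subgroup.subtype_injective _)]
    rw [hQeq]
    exact Subgroup.Normal.subgroupOf hWn _
  have hsol : Group.IsSolvable M.normalCore := IsNilpotent.to_isSolvable
  have hKsol : Group.IsSolvable K :=
    Group.isSolvable_of_isSolvable_injective (Subgroup.inclusion_injective hKF)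
  exact Cfsg.Agent.Lib.Helper21.Quasi.not_isSolvable hK.2 hKsol

/-- Structure: `O^p(P) = F*(P) = E(P) = ⟨K^S⟩`. -/
theorem structure_eq (hP : Cfsg.IsPMinimal p P) (hOp : Cfsg.pCore p P = ⊥) (S : Sylow p P)
    (K : Subgroup P) (hK : Cfsg.IsComponent K) :
    Cfsg.pResidual p P = Cfsg.generalizedFittingSubgroup P ∧
      Cfsg.generalizedFittingSubgroup P = Cfsg.layer P ∧
      Cfsg.layer P = ⨆ s : ↥(S : Subgroup P), K.map (MulAut.conj (s : P)).toMonoidHom := by
  obtain ⟨M, ⟨hM, hSM⟩, -⟩ := (hP S).2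
  have hKX : K ≤ ⨆ s : ↥(S : Subgroup P), K.map (MulAut.conj (s : P)).toMonoidHom := by
    have h1 := le_iSup (fun s : (S : Subgroup P) => K.map (MulAut.conj (s : P)).toMonoidHom) 1
    rwa [OneMemClass.coe_one, Cfsg.Agent.Lib.Helper33.Conj.cj_one] at h1
  have hSX := le_normalizer_iSup_conj (S : Subgroup P) K
  have hXtop : (⨆ s : ↥(S : Subgroup P), K.map (MulAut.conj (s : P)).toMonoidHom) ⊔
      (S : Subgroup P) = ⊤ :=
    Cfsg.Agent.Lib.Helper48.PMin.sup_eq_top_of_not_le hP S hM hSM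
      (fun h => component_not_le hP hOp S hM hSM hK (hKX.trans h))
  have hRX : Cfsg.pResidual p P ≤
      ⨆ s : ↥(S : Subgroup P), K.map (MulAut.conj (s : P)).toMonoidHom :=
    Cfsg.Agent.Lib.Helper48.PMin.pResidual_le_of_sup_eq_top S hSX hXtop
  have hXE : (⨆ s : ↥(S : Subgroup P), K.map (MulAut.conj (s : P)).toMonoidHom) ≤
      Cfsg.layer P := by
    apply iSup_le
    intro s
    exact le_sSup (Cfsg.Agent.Lib.Helper21.Comp.isComponent_map_equiv (MulAut.conj (s : P)) hK)
  have hER : Cfsg.layer P ≤ Cfsg.pResidual p P := by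
    apply sSup_le
    intro L hL
    exact le_pResidual_of_perfect hL.2.1
  have hFR : Cfsg.generalizedFittingSubgroup P ≤ Cfsg.pResidual p P :=
    sup_le hER (fitting_le_pResidual hOp)
  have hEF : Cfsg.layer P ≤ Cfsg.generalizedFittingSubgroup P := le_sup_left
  exact ⟨le_antisymm (hRX.trans (hXE.trans hEF)) hFR,
    le_antisymm (hFR.trans (hRX.trans hXE)) hEF, le_antisymm (hER.trans hRX) hXE⟩

/-- An `N_S(K)`-invariant proper subgroup of the component `K` lies in `M`. -/
lemma invariant_le (hP : Cfsg.IsPMinimal p P) (S : Sylow p P)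
    {M : Subgroup P} (hM : IsCoatom M) (hSM : (S : Subgroup P) ≤ M) {K : Subgroup P}
    (hK : Cfsg.IsComponent K) {Y1 : Subgroup P} (hY1K : Y1 ≤ K)
    (hinv : (S : Subgroup P) ⊓ normalizer (K : Set P) ≤ normalizer (Y1 : Set P))
    (hne : Y1 ≠ K) : Y1 ≤ M := by
  by_contra hY1M
  have hY1Y : Y1 ≤ ⨆ s : ↥(S : Subgroup P), Y1.map (MulAut.conj (s : P)).toMonoidHom := by
    have h1 := le_iSup (fun s : (S : Subgroup P) => Y1.map (MulAut.conj (s : P)).toMonoidHom) 1
    rwa [OneMemClass.coe_one, Cfsg.Agent.Lib.Helper33.Conj.cj_one] at h1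
  have hSY := le_normalizer_iSup_conj (S : Subgroup P) Y1
  have hYtop : (⨆ s : ↥(S : Subgroup P), Y1.map (MulAut.conj (s : P)).toMonoidHom) ⊔
      (S : Subgroup P) = ⊤ :=
    Cfsg.Agent.Lib.Helper48.PMin.sup_eq_top_of_not_le hP S hM hSM
      (fun h => hY1M (hY1Y.trans h))
  have hRY := Cfsg.Agent.Lib.Helper48.PMin.pResidual_le_of_sup_eq_top S hSY hYtop
  have hKR : K ≤ Cfsg.pResidual p P := le_pResidual_of_perfect hK.2.1
  have hYle : (⨆ s : ↥(S : Subgroup P), Y1.map (MulAut.conj (s : P)).toMonoidHom) ≤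
      Y1 ⊔ centralizer (K : Set P) := by
    apply iSup_le
    intro s
    by_cases hs : (s : P) ∈ normalizer (K : Set P)
    · rw [Cfsg.Agent.Lib.Helper33.Conj.cj_eq_of_mem_normalizer (hinv ⟨s.2, hs⟩)]
      exact le_sup_left
    · have hKs : Cfsg.IsComponent (K.map (MulAut.conj (s : P)).toMonoidHom) :=
        Cfsg.Agent.Lib.Helper21.Comp.isComponent_map_equiv (MulAut.conj (s : P)) hK
      have hne' : K.map (MulAut.conj (s : P)).toMonoidHom ≠ K := fun h =>
        hs (Cfsg.Agent.Lib.Helper33.Conj.mem_normalizer_iff_cj_eq.mpr h)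
      have hcomm := Cfsg.Agent.Lib.Helper21.Comp.components_commute _ K hKs hK hne'
      rw [Subgroup.commutator_eq_bot_iff_le_centralizer] at hcomm
      exact ((Subgroup.map_mono hY1K).trans hcomm).trans le_sup_right
  have hKle : K ≤ Y1 ⊔ centralizer (K : Set P) := hKR.trans (hRY.trans hYle)
  have hY1n : Y1 ≤ normalizer ((centralizer (K : Set P) : Subgroup P) : Set P) := fun y hy =>
    Cfsg.Agent.Lib.Helper48.CharP.mem_normalizer_centralizer (le_normalizer (hY1K hy))
  have hsup : Y1.subgroupOf K ⊔ center K = ⊤ := by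
    rw [eq_top_iff]
    intro k _
    obtain ⟨a, ha, b, hb, hab⟩ :=
      Cfsg.Agent.Lib.Helper86.GroupAux.exists_mul_of_mem_sup hY1n (hKle k.2)
    have hbK : b ∈ K := by
      have : b = a⁻¹ * (k : P) := by rw [← hab]; group
      rw [this]
      exact K.mul_mem (K.inv_mem (hY1K ha)) k.2
    have hbc : (⟨b, hbK⟩ : K) ∈ center K := by
      rw [Subgroup.mem_center_iff]
      intro g
      apply Subtype.ext
      exact (Subgroup.mem_centralizer_iff.mp hb) g g.2
    have hk : k = (⟨a, hY1K ha⟩ : K) * ⟨b, hbK⟩ := Subtype.ext hab.symm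
    rw [hk]
    exact Subgroup.mul_mem_sup (Subgroup.mem_subgroupOf.mpr ha) hbc
  have hcomm := Cfsg.Agent.Lib.Helper21.Quasi.commutator_le_of_sup_center_eq_top _ hsup
  have hperf : commutator K = ⊤ := hK.2.1.commutator_eq_top
  have hle : ⁅Y1.subgroupOf K, Y1.subgroupOf K⁆ ≤ Y1.subgroupOf K := by
    rw [Subgroup.commutator_le]
    intro a ha b hb
    exact Subgroup.mul_mem _ (Subgroup.mul_mem _ (Subgroup.mul_mem _ ha hb)
      (Subgroup.inv_mem _ ha)) (Subgroup.inv_mem _ hb)
  have htop : Y1.subgroupOf K = ⊤ := top_le_iff.mp (hperf ▸ hcomm.trans hle)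
  rw [Subgroup.subgroupOf_eq_top] at htop
  exact hne (le_antisymm hY1K htop)

/-- `K N_S(K)` is `p`-minimal. -/
theorem isPMinimal_component (hP : Cfsg.IsPMinimal p P) (hOp : Cfsg.pCore p P = ⊥) (S : Sylow p P)
    (K : Subgroup P) (hK : Cfsg.IsComponent K) :
    Cfsg.IsPMinimal p ↥(K ⊔ ((S : Subgroup P) ⊓ normalizer (K : Set P))) := by
  obtain ⟨M, ⟨hM, hSM⟩, -⟩ := (hP S).2
  have hKM : ¬ K ≤ M := component_not_le hP hOp S hM hSM hK
  have hS1N : (S : Subgroup P) ⊓ normalizer (K : Set P) ≤ normalizer (K : Set P) := inf_le_right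
  have hS1p : IsPGroup p ↥((S : Subgroup P) ⊓ normalizer (K : Set P)) := S.2.to_le inf_le_left
  have hS1L : (S : Subgroup P) ⊓ normalizer (K : Set P) ≤
      K ⊔ ((S : Subgroup P) ⊓ normalizer (K : Set P)) := le_sup_right
  -- claim A
  have claimA : ∀ H : Subgroup P, H ≤ K ⊔ ((S : Subgroup P) ⊓ normalizer (K : Set P)) →
      (S : Subgroup P) ⊓ normalizer (K : Set P) ≤ H →
      H ≠ K ⊔ ((S : Subgroup P) ⊓ normalizer (K : Set P)) → H ≤ M := by
    intro H hHL hS1H hHne
    have hY1 : H ⊓ K ≤ M := by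
      apply invariant_le hP S hM hSM hK inf_le_right
      · intro s hs
        exact Cfsg.Agent.Lib.Helper48.CharP.mem_normalizer_inf (le_normalizer (hS1H hs)) hs.2
      · intro h
        exact hHne (le_antisymm hHL (sup_le (inf_eq_right.mp h) hS1H))
    intro h hh
    have hh' : h ∈ ((S : Subgroup P) ⊓ normalizer (K : Set P)) ⊔ K := by
      rw [sup_comm]; exact hHL hh
    obtain ⟨a, ha, b, hb, hab⟩ :=
      Cfsg.Agent.Lib.Helper86.GroupAux.exists_mul_of_mem_sup hS1N hh'
    have hbH : b ∈ H := by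
      have : b = a⁻¹ * h := by rw [← hab]; group
      rw [this]
      exact H.mul_mem (H.inv_mem (hS1H ha)) hh
    rw [← hab]
    exact M.mul_mem (hSM ha.1) (hY1 ⟨hbH, hb⟩)
  -- Sylow
  have hidx : ¬ p ∣ (((S : Subgroup P) ⊓ normalizer (K : Set P)).subgroupOf
      (K ⊔ ((S : Subgroup P) ⊓ normalizer (K : Set P)))).index := by
    have h1 : ((S : Subgroup P) ⊓ normalizer (K : Set P)).relIndex
        (K ⊔ ((S : Subgroup P) ⊓ normalizer (K : Set P))) =
        (S : Subgroup P).relIndex K := by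
      rw [sup_comm, relIndex_sup_of_le_normalizer _ _ hS1N, ← Subgroup.inf_relIndex_right,
        inf_assoc, inf_eq_right.mpr (le_normalizer : K ≤ normalizer (K : Set P)),
        Subgroup.inf_relIndex_right]
    show ¬ p ∣ ((S : Subgroup P) ⊓ normalizer (K : Set P)).relIndex
        (K ⊔ ((S : Subgroup P) ⊓ normalizer (K : Set P)))
    rw [h1]
    exact Cfsg.Agent.Lib.Helper62.SylowSubn.not_dvd_relIndex_of_isSubnormal S.not_dvd_index hK.1
  have hS1p' : IsPGroup p ↥(((S : Subgroup P) ⊓ normalizer (K : Set P)).subgroupOf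
      (K ⊔ ((S : Subgroup P) ⊓ normalizer (K : Set P)))) := hS1p.comap_subtype
  apply isPMinimal_of_exists (hS1p'.toSylow hidx)
  · rw [IsPGroup.toSylow_coe]
    intro hn
    rw [Subgroup.normal_subgroupOf_iff_le_normalizer hS1L] at hn
    have hKn : K ≤ normalizer (((S : Subgroup P) ⊓ normalizer (K : Set P) : Subgroup P) : Set P) :=
      le_sup_left.trans hn
    apply hKM
    intro x hx
    have hDn : ∀ y : P, y ∈ normalizer (K : Set P) →
        y ∈ normalizer (((S : Subgroup P) ⊓ normalizer (K : Set P) : Subgroup P) : Set P) →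
        y ∈ normalizer ((((S : Subgroup P) ⊓ normalizer (K : Set P)) ⊓ K : Subgroup P) : Set P) :=
      fun y h1 h2 => Cfsg.Agent.Lib.Helper48.CharP.mem_normalizer_inf h2 h1
    have hY1 : zpowers x ⊔ (((S : Subgroup P) ⊓ normalizer (K : Set P)) ⊓ K) ≤ M := by
      apply invariant_le hP S hM hSM hK (sup_le (Subgroup.zpowers_le.mpr hx) inf_le_right)
      · apply Cfsg.Agent.Lib.Helper76.SylowTools.le_normalizer_of_conj_mem
        intro s hs g hg
        have h1 : (zpowers x ⊔ (((S : Subgroup P) ⊓ normalizer (K : Set P)) ⊓ K)).map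
            (MulAut.conj s).toMonoidHom ≤
            zpowers x ⊔ (((S : Subgroup P) ⊓ normalizer (K : Set P)) ⊓ K) := by
          rw [Subgroup.map_sup, MonoidHom.map_zpowers]
          apply sup_le
          · rw [Subgroup.zpowers_le]
            have h2 : s * x * s⁻¹ * x⁻¹ ∈ ((S : Subgroup P) ⊓ normalizer (K : Set P)) ⊓ K := by
              refine ⟨?_, ?_⟩
              · have h3 : x * s⁻¹ * x⁻¹ ∈ (S : Subgroup P) ⊓ normalizer (K : Set P) :=
                  (Subgroup.mem_normalizer_iff.mp (hKn hx) s⁻¹).mp (Subgroup.inv_mem _ hs)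
                have h4 : s * x * s⁻¹ * x⁻¹ = s * (x * s⁻¹ * x⁻¹) := by group
                rw [h4]
                exact Subgroup.mul_mem _ hs h3
              · have h3 : s * x * s⁻¹ ∈ K := (Subgroup.mem_normalizer_iff.mp hs.2 x).mp hx
                exact K.mul_mem h3 (K.inv_mem hx)
            have h5 : (MulAut.conj s).toMonoidHom x = (s * x * s⁻¹ * x⁻¹) * x := by
              simp [MulAut.conj_apply]
            rw [h5]
            exact Subgroup.mul_mem _ (Subgroup.mem_sup_right h2)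
              (Subgroup.mem_sup_left (Subgroup.mem_zpowers x))
          · rw [Cfsg.Agent.Lib.Helper33.Conj.cj_eq_of_mem_normalizer
              (hDn s hs.2 (le_normalizer hs))]
            exact le_sup_right
        exact h1 (Cfsg.Agent.Lib.Helper33.Conj.conj_mem_cj hg)
      · intro h
        have hD : Group.IsSolvable ↥(((S : Subgroup P) ⊓ normalizer (K : Set P)) ⊓ K) := by
          have hDp : IsPGroup p ↥(((S : Subgroup P) ⊓ normalizer (K : Set P)) ⊓ K) :=
            hS1p.to_le inf_le_left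
          have : Group.IsNilpotent ↥(((S : Subgroup P) ⊓ normalizer (K : Set P)) ⊓ K) :=
            hDp.isNilpotent
          exact IsNilpotent.to_isSolvable
        have hZ : Group.IsSolvable ↥(zpowers x) := by
          apply Group.isSolvable_of_comm
          intro a b
          obtain ⟨i, hi⟩ := Subgroup.mem_zpowers_iff.mp a.2
          obtain ⟨j, hj⟩ := Subgroup.mem_zpowers_iff.mp b.2
          apply Subtype.ext
          rw [Subgroup.coe_mul, Subgroup.coe_mul, ← hi, ← hj]
          exact (Commute.zpow_zpow_self x i j).eq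
        have hxn : zpowers x ≤ normalizer
            ((((S : Subgroup P) ⊓ normalizer (K : Set P)) ⊓ K : Subgroup P) : Set P) := by
          rw [Subgroup.zpowers_le]
          exact hDn x (le_normalizer hx) (hKn hx)
        have hs := Cfsg.Agent.Lib.Helper31.SigBasic.isSolvable_sup _ _ hxn hD hZ
        have e : (((S : Subgroup P) ⊓ normalizer (K : Set P)) ⊓ K) ⊔ zpowers x = K := by
          rw [sup_comm]; exact h
        exact Cfsg.Agent.Lib.Helper21.Quasi.not_isSolvable hK.2 (e ▸ hs)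
    exact hY1 (Subgroup.mem_sup_left (Subgroup.mem_zpowers x))
  · rw [IsPGroup.toSylow_coe]
    have claimG : ∀ H' : Subgroup ↥(K ⊔ ((S : Subgroup P) ⊓ normalizer (K : Set P))),
        ((S : Subgroup P) ⊓ normalizer (K : Set P)).subgroupOf
          (K ⊔ ((S : Subgroup P) ⊓ normalizer (K : Set P))) ≤ H' → H' ≠ ⊤ →
        H' ≤ M.subgroupOf (K ⊔ ((S : Subgroup P) ⊓ normalizer (K : Set P))) := by
      intro H' hSH' hH'
      have h1 : H'.map (K ⊔ ((S : Subgroup P) ⊓ normalizer (K : Set P))).subtype ≤ M := by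
        apply claimA _ (Subgroup.map_subtype_le _)
        · intro s hs
          exact ⟨⟨s, hS1L hs⟩, hSH' (Subgroup.mem_subgroupOf.mpr hs), rfl⟩
        · intro h
          apply hH'
          rw [eq_top_iff]
          intro y _
          have hy : (y : P) ∈ H'.map (K ⊔ ((S : Subgroup P) ⊓ normalizer (K : Set P))).subtype := by
            rw [h]; exact y.2
          obtain ⟨z, hz, hzy⟩ := hy
          have : z = y := Subtype.ext hzy
          exact this ▸ hz
      intro y hy
      rw [Subgroup.mem_subgroupOf]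
      exact h1 ⟨y, hy, rfl⟩
    have hM'top : M.subgroupOf (K ⊔ ((S : Subgroup P) ⊓ normalizer (K : Set P))) ≠ ⊤ := by
      rw [Ne, Subgroup.subgroupOf_eq_top]
      exact fun h => hKM (le_sup_left.trans h)
    have hSM' : ((S : Subgroup P) ⊓ normalizer (K : Set P)).subgroupOf
        (K ⊔ ((S : Subgroup P) ⊓ normalizer (K : Set P))) ≤
        M.subgroupOf (K ⊔ ((S : Subgroup P) ⊓ normalizer (K : Set P))) := by
      intro y hy
      rw [Subgroup.mem_subgroupOf] at hy ⊢
      exact hSM hy.1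
    refine ⟨M.subgroupOf (K ⊔ ((S : Subgroup P) ⊓ normalizer (K : Set P))), ⟨⟨hM'top, ?_⟩, hSM'⟩, ?_⟩
    · intro b hb
      by_contra hbt
      exact lt_irrefl _ (lt_of_lt_of_le hb (claimG b (hSM'.trans hb.le) hbt))
    · rintro M'' ⟨hM'', hSM''⟩
      have hle := claimG M'' hSM'' hM''.1
      by_contra hne
      exact hM'top (hM''.2 _ (lt_of_le_of_ne hle hne))

end pmin

end Cfsg.Agent.Lib.Helper48.PMin2
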