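import Mathlib
import Cfsg.Agent.S0261
import Cfsg.Agent.H85.PSL2Inv
import Cfsg.Agent.Lib.Helper5.SL2Card

set_option autoImplicit false

/-!
A finite group with generalized quaternion Sylow 2-subgroup of order `2^(k+2)` in which the two
"types" of elements of order 4 are fused: `SL₂(q)` for a suitable prime `q` (Dirichlet).
-/

namespace Cfsg.Agent.Lib.Helper48.QuatFus

open Matrix

/-- Dirichlet: a prime `q ≡ 2^(k+1)+1 mod 2^(k+2)`. -/
theorem exists_prime (k : ℕ) : ∃ q : ℕ, q.Prime ∧ q % 2 ^ (k + 2) = 2 ^ (k + 1) + 1 := by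
  have hc : (2 ^ (k + 1) + 1).Coprime (2 ^ (k + 2)) := by
    apply Nat.Coprime.pow_right
    rw [Nat.coprime_two_right]
    exact ⟨2 ^ k, by rw [pow_succ]; ring⟩
  obtain ⟨p, -, hp, hmod⟩ := Nat.forall_exists_prime_gt_and_modEq 0 (by positivity) hc
  refine ⟨p, hp, ?_⟩
  have h1 : 2 ^ (k + 1) + 1 < 2 ^ (k + 2) := by
    have h2 : 2 ≤ 2 ^ (k + 1) := by
      calc 2 = 2 ^ 1 := by norm_num
        _ ≤ 2 ^ (k + 1) := Nat.pow_le_pow_right (by norm_num) (by omega)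
    rw [pow_succ 2 (k + 1)]
    omega
  rw [Nat.ModEq] at hmod
  rw [hmod, Nat.mod_eq_of_lt h1]

/-- For such a prime, `q (q² - 1) = 2^(k+2) * r` with `r` odd. -/
theorem card_factor (k : ℕ) (hk : 1 ≤ k) (q : ℕ) (hmod : q % 2 ^ (k + 2) = 2 ^ (k + 1) + 1) :
    ∃ r : ℕ, Odd r ∧ q * (q ^ 2 - 1) = 2 ^ (k + 2) * r := by
  obtain ⟨m, hm⟩ : ∃ m, q = 2 ^ (k + 2) * m + (2 ^ (k + 1) + 1) := by
    refine ⟨q / 2 ^ (k + 2), ?_⟩
    have := Nat.div_add_mod q (2 ^ (k + 2))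
    rw [hmod] at this
    exact this.symm
  obtain ⟨j, hj⟩ : ∃ j, k = j + 1 := ⟨k - 1, by omega⟩
  have hq1 : q - 1 = 2 ^ (k + 1) * (2 * m + 1) := by
    rw [hm]
    have : 2 ^ (k + 2) * m + (2 ^ (k + 1) + 1) - 1 = 2 ^ (k + 2) * m + 2 ^ (k + 1) := by omega
    rw [this, pow_succ 2 (k + 1)]
    ring
  have hq2 : q + 1 = 2 * (2 ^ (k + 1) * m + 2 ^ j * 2 + 1) := by
    rw [hm, hj]
    ring
  have hqodd : Odd q := by
    rw [hm]
    exact ⟨2 ^ (k + 1) * m + 2 ^ k, by rw [pow_succ 2 (k + 1), pow_succ 2 k]; ring⟩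
  have hq1' : 1 ≤ q := by rw [hm]; omega
  have hsq : q ^ 2 - 1 = (q - 1) * (q + 1) := by
    obtain ⟨s, hs⟩ : ∃ s, q = s + 1 := ⟨q - 1, by omega⟩
    rw [hs]
    have : (s + 1) ^ 2 - 1 = s * (s + 2) := by
      have : (s + 1) ^ 2 = s * (s + 2) + 1 := by ring
      omega
    rw [this]
    simp
  refine ⟨q * ((2 * m + 1) * (2 ^ (k + 1) * m + 2 ^ j * 2 + 1)), ?_, ?_⟩
  · apply Odd.mul hqodd
    apply Odd.mul
    · exact ⟨m, rfl⟩
    · exact ⟨2 ^ k * m + 2 ^ j, by rw [pow_succ 2 k]; ring⟩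
  · rw [hsq, hq1, hq2, pow_succ 2 (k + 1)]
    ring

theorem exists_quat (k : ℕ) (hk : 2 ≤ k) :
    ∃ (G : Type) (_ : Group G) (_ : Finite G) (P : Sylow 2 G)
      (e : ↥(P : Subgroup G) ≃* QuaternionGroup (2 ^ k)) (c : G),
      c * ((e.symm (QuaternionGroup.a ((2 ^ (k - 1) : ℕ) : ZMod (2 * 2 ^ k)))) : G) * c⁻¹
        = ((e.symm (QuaternionGroup.xa 0)) : G) := by
  obtain ⟨q, hq, hmod⟩ := exists_prime k
  have : Fact q.Prime := ⟨hq⟩
  obtain ⟨r, hr, hcard⟩ := card_factor k (by omega) q hmod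
  have hcardF : Fintype.card (ZMod q) = q := ZMod.card q
  have hGcard : Nat.card (SpecialLinearGroup (Fin 2) (ZMod q)) = 2 ^ (k + 2) * r := by
    rw [Cfsg.Agent.Lib.Helper5.SL2Card.card_SL_two hcardF, hcard]
  have hqodd : Odd q := by
    rcases Nat.even_or_odd q with h | h
    · exfalso
      have h1 : Even (q * (q ^ 2 - 1)) := h.mul_right _
      rw [hcard] at h1
      have hq2 : q = 2 := (Nat.Prime.even_iff hq).mp h
      rw [hq2] at hmod
      have h4 : (4 : ℕ) ≤ 2 ^ (k + 2) := by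
        calc 4 = 2 ^ 2 := by norm_num
          _ ≤ 2 ^ (k + 2) := Nat.pow_le_pow_right (by norm_num) (by omega)
      rw [Nat.mod_eq_of_lt (by omega)] at hmod
      have : 1 ≤ 2 ^ (k + 1) := Nat.one_le_two_pow
      omega
    · exact h
  have hodd : Odd (Fintype.card (ZMod q)) := by rw [hcardF]; exact hqodd
  have hodd' : Fintype.card (ZMod q) % 2 = 1 := Nat.odd_iff.mp hodd
  have h2 : (2 : ZMod q) ≠ 0 := by
    intro h
    have h3 : ((2 : ℕ) : ZMod q) = 0 := by exact_mod_cast h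
    rw [ZMod.natCast_eq_zero_iff] at h3
    have hq2 : q = 2 := ((Nat.prime_dvd_prime_iff_eq hq Nat.prime_two).mp h3)
    rw [hq2] at hqodd
    exact absurd hqodd (by decide)
  obtain ⟨P⟩ : Nonempty (Sylow 2 (SpecialLinearGroup (Fin 2) (ZMod q))) := inferInstance
  obtain ⟨k', hk', ⟨e'⟩⟩ := Cfsg.Agent.S0261.result hodd P
  have hPcard : Nat.card (P : Subgroup (SpecialLinearGroup (Fin 2) (ZMod q))) = 2 ^ (k + 2) := by
    obtain ⟨n, hn⟩ := IsPGroup.iff_card.mp P.isPGroup'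
    apply Nat.dvd_antisymm
    · have h1 : Nat.card (P : Subgroup (SpecialLinearGroup (Fin 2) (ZMod q))) ∣ 2 ^ (k + 2) * r := by
        rw [← hGcard]; exact Subgroup.card_subgroup_dvd_card _
      rw [hn] at h1 ⊢
      exact (Nat.Coprime.pow_left n (Nat.coprime_two_left.mpr hr)).dvd_of_dvd_mul_right h1
    · apply P.pow_dvd_card_of_pow_dvd_card
      rw [hGcard]
      exact Dvd.intro _ rfl
  have hkk : k' = k := by
    have h1 : Nat.card (P : Subgroup (SpecialLinearGroup (Fin 2) (ZMod q))) =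
        Nat.card (QuaternionGroup (2 ^ k')) := Nat.card_congr e'.toEquiv
    have : NeZero (2 ^ k') := ⟨by positivity⟩
    rw [hPcard, Nat.card_eq_fintype_card, QuaternionGroup.card] at h1
    have h3 : (2 : ℕ) ^ (k + 2) = 2 ^ (k' + 2) := by
      rw [h1, pow_add]; ring
    have := Nat.pow_right_injective (le_refl 2) h3
    omega
  subst hkk
  -- the elements
  have hz_ne : (QuaternionGroup.a ((2 ^ k' : ℕ) : ZMod (2 * 2 ^ k')) : QuaternionGroup (2 ^ k')) ≠ 1 := by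
    rw [QuaternionGroup.one_def]
    intro h
    have h1 : ((2 ^ k' : ℕ) : ZMod (2 * 2 ^ k')) = 0 := by
      injection h
    rw [ZMod.natCast_eq_zero_iff] at h1
    have h4 := Nat.le_of_dvd (by positivity) h1
    have : 0 < 2 ^ k' := by positivity
    omega
  have hz_sq : (QuaternionGroup.a ((2 ^ k' : ℕ) : ZMod (2 * 2 ^ k')) : QuaternionGroup (2 ^ k')) *
      QuaternionGroup.a ((2 ^ k' : ℕ) : ZMod (2 * 2 ^ k')) = 1 := by
    rw [QuaternionGroup.a_mul_a, QuaternionGroup.one_def]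
    congr 1
    rw [← Nat.cast_add, ZMod.natCast_eq_zero_iff]
    exact dvd_of_eq (by ring)
  have ha_sq : (QuaternionGroup.a ((2 ^ (k' - 1) : ℕ) : ZMod (2 * 2 ^ k')) : QuaternionGroup (2 ^ k')) *
      QuaternionGroup.a ((2 ^ (k' - 1) : ℕ) : ZMod (2 * 2 ^ k')) =
      QuaternionGroup.a ((2 ^ k' : ℕ) : ZMod (2 * 2 ^ k')) := by
    rw [QuaternionGroup.a_mul_a]
    congr 1
    rw [← Nat.cast_add]
    congr 1
    obtain ⟨j, hj⟩ : ∃ j, k' = j + 1 := ⟨k' - 1, by omega⟩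
    rw [hj, Nat.add_sub_cancel, pow_succ]
    ring
  have hx_sq : (QuaternionGroup.xa 0 : QuaternionGroup (2 ^ k')) * QuaternionGroup.xa 0 =
      QuaternionGroup.a ((2 ^ k' : ℕ) : ZMod (2 * 2 ^ k')) := by
    rw [QuaternionGroup.xa_mul_xa]
    congr 1
    simp
  -- the involution of `P` is `-1`
  have hzG : ((e'.symm (QuaternionGroup.a ((2 ^ k' : ℕ) : ZMod (2 * 2 ^ k'))) :
      (P : Subgroup (SpecialLinearGroup (Fin 2) (ZMod q)))) : SpecialLinearGroup (Fin 2) (ZMod q)) = -1 := by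
    have h1 : ((e'.symm (QuaternionGroup.a ((2 ^ k' : ℕ) : ZMod (2 * 2 ^ k'))) :
        (P : Subgroup (SpecialLinearGroup (Fin 2) (ZMod q)))) : SpecialLinearGroup (Fin 2) (ZMod q)) *
        ((e'.symm (QuaternionGroup.a ((2 ^ k' : ℕ) : ZMod (2 * 2 ^ k'))) :
        (P : Subgroup (SpecialLinearGroup (Fin 2) (ZMod q)))) : SpecialLinearGroup (Fin 2) (ZMod q)) = 1 := by
      rw [← Subgroup.coe_mul, ← map_mul, hz_sq, map_one, Subgroup.coe_one]
    rcases Cfsg.Agent.H85.PSL2Inv.eq_one_or_neg_of_sq h2 h1 with h | h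
    · exfalso
      apply hz_ne
      have h3 : e'.symm (QuaternionGroup.a ((2 ^ k' : ℕ) : ZMod (2 * 2 ^ k'))) = 1 :=
        Subtype.ext (by rw [h, Subgroup.coe_one])
      have := congrArg e' h3
      rwa [MulEquiv.apply_symm_apply, map_one] at this
    · exact h
  have h1sq : ((e'.symm (QuaternionGroup.a ((2 ^ (k' - 1) : ℕ) : ZMod (2 * 2 ^ k'))) :
      (P : Subgroup (SpecialLinearGroup (Fin 2) (ZMod q)))) : SpecialLinearGroup (Fin 2) (ZMod q)) *
      ((e'.symm (QuaternionGroup.a ((2 ^ (k' - 1) : ℕ) : ZMod (2 * 2 ^ k'))) :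
      (P : Subgroup (SpecialLinearGroup (Fin 2) (ZMod q)))) : SpecialLinearGroup (Fin 2) (ZMod q)) = -1 := by
    rw [← Subgroup.coe_mul, ← map_mul, ha_sq, hzG]
  have h2sq : ((e'.symm (QuaternionGroup.xa 0) :
      (P : Subgroup (SpecialLinearGroup (Fin 2) (ZMod q)))) : SpecialLinearGroup (Fin 2) (ZMod q)) *
      ((e'.symm (QuaternionGroup.xa 0) :
      (P : Subgroup (SpecialLinearGroup (Fin 2) (ZMod q)))) : SpecialLinearGroup (Fin 2) (ZMod q)) = -1 := by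
    rw [← Subgroup.coe_mul, ← map_mul, hx_sq, hzG]
  obtain ⟨y₁, hy₁⟩ := Cfsg.Agent.H85.PSL2Inv.isConj_w0 hodd' h2
    (Cfsg.Agent.H85.PSL2Inv.trace_zero_of_sq h2 h1sq)
  obtain ⟨y₂, hy₂⟩ := Cfsg.Agent.H85.PSL2Inv.isConj_w0 hodd' h2
    (Cfsg.Agent.H85.PSL2Inv.trace_zero_of_sq h2 h2sq)
  refine ⟨SpecialLinearGroup (Fin 2) (ZMod q), inferInstance, inferInstance, P, e', y₂ * y₁⁻¹, ?_⟩
  rw [← hy₁, ← hy₂]
  group

end Cfsg.Agent.Lib.Helper48.QuatFus
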