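import Mathlib
import Cfsg.Agent.H9.Supersolvable
import Cfsg.Agent.Lib.Helper9.Hup1
import Cfsg.Agent.Lib.Helper9.Hup2
import Cfsg.Agent.Lib.Helper9.Hup3

set_option autoImplicit false

/-!
# A hypercentral criterion for supersolvability

`ss_of_hyper`: if `Q` is a normal `q`-subgroup of the finite group `G`, the subgroup generated by
commutators and `(q-1)`-th powers acts on `Q` as a `q`-group, and `G ⧸ Q` is supersolvable, then
`G` is supersolvable.
-/

namespace Cfsg.Agent.Lib.Helper48.SSKey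

open Subgroup Cfsg.Agent.H9 Cfsg.Agent.Lib.Helper9.Hup1 Cfsg.Agent.Lib.Helper9.Hup2
  Cfsg.Agent.Lib.Helper9.Hup3
open scoped commutatorElement

universe u v

theorem dsub_normal (m : ℕ) (H : Type u) [Group H] : (dsub m H).Normal := by
  constructor
  intro x hx g
  have h := map_dsub_le m (MulAut.conj g).toMonoidHom ⟨x, hx, rfl⟩
  simpa using h

theorem dsub_le_map (m : ℕ) {H : Type u} {H' : Type v} [Group H] [Group H'] (f : H →* H')
    (hf : Function.Surjective f) : dsub m H' ≤ (dsub m H).map f := by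
  rw [dsub, Subgroup.closure_le]
  rintro x (⟨a, b, rfl⟩ | ⟨a, rfl⟩)
  · obtain ⟨a', rfl⟩ := hf a
    obtain ⟨b', rfl⟩ := hf b
    exact ⟨⁅a', b'⁆, commutator_mem_dsub m a' b', map_commutatorElement f a' b'⟩
  · obtain ⟨a', rfl⟩ := hf a
    exact ⟨a' ^ m, pow_mem_dsub m a', map_pow f a' m⟩

/-- The subgroup generated by commutators and `(q-1)`-th powers centralizes every normal
subgroup of order `q`. -/
theorem dsub_centralizes_prime {G : Type u} [Group G] [Finite G] (q : ℕ) [hq : Fact q.Prime]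
    (Z : Subgroup G) [Z.Normal] (hZ : Nat.card Z = q) :
    ∀ t ∈ dsub (q - 1) G, ∀ z ∈ Z, t * z * t⁻¹ = z := by
  intro t ht z hz
  have hZcyc : IsCyclic Z := isCyclic_of_prime_card hZ
  let φ : G →* MulAut Z := MulAut.conjNormal
  have hfin : Finite (MulAut Z) :=
    Finite.of_injective (fun a : MulAut Z => (a : Z → Z)) DFunLike.coe_injective
  have hker : dsub (q - 1) G ≤ φ.ker := by
    apply dsub_le_ker (q - 1) φ
    · intro a b
      apply (IsCyclic.mulAutMulEquiv Z).injective
      rw [map_mul, map_mul, mul_comm]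
    · intro a
      have h1 := IsCyclic.card_mulAut Z
      rw [hZ, Nat.totient_prime hq.out] at h1
      rw [← h1]
      exact pow_card_eq_one'
  have h1 : φ t = 1 := hker ht
  have h2 := congrArg (fun α : MulAut Z => ((α ⟨z, hz⟩ : Z) : G)) h1
  simpa [φ, MulAut.conjNormal_apply] using h2

/-- An element whose order is prime to `φ(|W|)` centralizes the cyclic normal subgroup `W`. -/
theorem centralizes_of_coprime_totient {G : Type u} [Group G] [Finite G] (W : Subgroup G)
    [W.Normal] (hW : IsCyclic W) (t : G)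
    (h : (orderOf t).Coprime (Nat.totient (Nat.card W))) : ∀ z ∈ W, t * z * t⁻¹ = z := by
  intro z hz
  let φ : G →* MulAut W := MulAut.conjNormal
  have hfin : Finite (MulAut W) :=
    Finite.of_injective (fun a : MulAut W => (a : W → W)) DFunLike.coe_injective
  have h1 : (φ t) ^ orderOf t = 1 := by
    rw [← map_pow, pow_orderOf_eq_one, map_one]
  have h2 : (φ t) ^ Nat.totient (Nat.card W) = 1 := by
    rw [← IsCyclic.card_mulAut W]
    exact pow_card_eq_one'
  have h3 : orderOf (φ t) ∣ 1 := by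
    rw [← Nat.Coprime.gcd_eq_one h]
    exact Nat.dvd_gcd (orderOf_dvd_of_pow_eq_one h1) (orderOf_dvd_of_pow_eq_one h2)
  have h4 : φ t = 1 := orderOf_eq_one_iff.mp (Nat.dvd_one.mp h3)
  have h5 := congrArg (fun α : MulAut W => ((α ⟨z, hz⟩ : W) : G)) h4
  simpa [φ, MulAut.conjNormal_apply] using h5

/-- Hypercentral criterion: a normal `q`-subgroup `Q` on which the subgroup generated by
commutators and `(q-1)`-th powers acts as a `q`-group, with `G ⧸ Q` supersolvable. -/
theorem ss_of_hyper (q : ℕ) [hq : Fact q.Prime] : ∀ (n : ℕ) (G : Type u) [Group G] [Finite G],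
    Nat.card G = n → ∀ (Q : Subgroup G) [Q.Normal], IsPGroup q Q →
    (∀ t ∈ dsub (q - 1) G, ∃ k : ℕ, ∀ x ∈ Q, t ^ (q ^ k) * x = x * t ^ (q ^ k)) →
    Cfsg.IsSupersolvable (G ⧸ Q) → Cfsg.IsSupersolvable G := by
  intro n
  induction n using Nat.strong_induction_on with
  | _ n ih =>
  intro G _ _ hcard Q hQn hQ hT hss
  by_cases hQb : Q = ⊥
  · subst hQb
    exact isSupersolvable_of_mulEquiv (QuotientGroup.quotientBot (G := G)) hss
  -- a minimal normal subgroup inside `Q`
  obtain ⟨N, ⟨hNQ, hNn, hNb⟩, hNmin⟩ := wellFounded_lt.has_min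
    {N : Subgroup G | N ≤ Q ∧ N.Normal ∧ N ≠ ⊥} ⟨Q, le_refl _, hQn, hQb⟩
  have hmin : ∀ N' : Subgroup G, N'.Normal → N' ≤ N → N' = ⊥ ∨ N' = N := by
    intro N' hN'n hN'N
    by_cases hb : N' = ⊥
    · exact Or.inl hb
    · right
      by_contra hne'
      exact hNmin N' ⟨hN'N.trans hNQ, hN'n, hb⟩ (lt_of_le_of_ne hN'N hne')
  obtain ⟨hcen, hexp⟩ := minimal_normal_in_pgroup q Q hQ N hNQ hNb hmin
  have hcomm : ∀ x ∈ N, ∀ y ∈ N, x * y = y * x := fun x hx y hy =>
    ((Subgroup.mem_centralizer_iff.mp (hcen hy)) x (hNQ hx))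
  have hTn : (dsub (q - 1) G).Normal := dsub_normal _ _
  -- `T` centralizes `N`
  have hTN : ∀ t ∈ dsub (q - 1) G, ∀ x ∈ N, t * x * t⁻¹ = x := by
    let ψ : (dsub (q - 1) G) →* MulAut N :=
      (MulAut.conjNormal (H := N)).comp (dsub (q - 1) G).subtype
    have hψ : ∀ (t : dsub (q - 1) G) (y : N), ((ψ t y : N) : G) = t * y * (t : G)⁻¹ :=
      fun t y => MulAut.conjNormal_apply (t : G) y
    have hR : IsPGroup q ψ.range := by
      rintro ⟨r, t, rfl⟩
      obtain ⟨k, hk⟩ := hT t t.2
      refine ⟨k, ?_⟩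
      apply Subtype.ext
      show (ψ t) ^ (q ^ k) = 1
      rw [← map_pow]
      ext y
      rw [hψ]
      have h1 := hk y (hNQ y.2)
      rw [Subgroup.coe_pow, h1]
      simp
    have h1 : (1 : N) ∈ MulAction.fixedPoints ψ.range N := by
      intro r
      show (r : MulAut N) 1 = 1
      exact map_one _
    have hqN : q ∣ Nat.card N := by
      rcases (hQ.to_le hNQ).card_eq_or_dvd with h' | h'
      · exact absurd (Subgroup.card_eq_one.mp h') hNb
      · exact h'
    obtain ⟨b, hb, hb1⟩ := hR.exists_fixed_point_of_prime_dvd_card_of_fixed_point N hqN h1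
    have hbfix : ∀ t ∈ dsub (q - 1) G, t * (b : G) * t⁻¹ = b := by
      intro t ht
      have h2 := hb ⟨ψ ⟨t, ht⟩, ⟨_, rfl⟩⟩
      have h3 : ψ ⟨t, ht⟩ b = b := h2
      have h4 := congrArg Subtype.val h3
      rw [hψ] at h4
      exact h4
    have hZn : (N ⊓ centralizer ((dsub (q - 1) G : Subgroup G) : Set G)).Normal := inferInstance
    have hbZ : (b : G) ∈ N ⊓ centralizer ((dsub (q - 1) G : Subgroup G) : Set G) := by
      refine Subgroup.mem_inf.mpr ⟨b.2, ?_⟩
      rw [Subgroup.mem_centralizer_iff]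
      intro t ht
      have h2 := hbfix t ht
      calc t * (b : G) = t * (b : G) * t⁻¹ * t := by group
        _ = (b : G) * t := by rw [h2]
    rcases hmin _ hZn inf_le_left with h | h
    · exfalso
      rw [h, Subgroup.mem_bot] at hbZ
      exact hb1 (Subtype.ext hbZ.symm)
    · intro t ht x hx
      rw [← h] at hx
      have h2 := (Subgroup.mem_centralizer_iff.mp hx.2) t ht
      rw [h2]; group
  -- every element acts on `N` as a power map
  have hpow : ∀ a : G, ∃ c : ℕ, ∀ y ∈ N, a * y * a⁻¹ = y ^ c := by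
    intro a
    have ha : ∀ x ∈ N, a ^ (q - 1) * x * (a ^ (q - 1))⁻¹ = x :=
      fun x hx => hTN _ (pow_mem_dsub (q - 1) a) x hx
    obtain ⟨c, x, hxN, hx1, hax⟩ := exists_eigen_subgroup q N hNb hcomm hexp a ha
    refine ⟨c, ?_⟩
    let Ec : Subgroup G :=
      { carrier := {y | y ∈ N ∧ a * y * a⁻¹ = y ^ c}
        one_mem' := ⟨one_mem _, by simp⟩
        mul_mem' := by
          rintro y z ⟨hy, hy'⟩ ⟨hz, hz'⟩
          refine ⟨mul_mem hy hz, ?_⟩
          have hc : Commute y z := hcomm y hy z hz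
          rw [hc.mul_pow, ← hy', ← hz']; group
        inv_mem' := by
          rintro y ⟨hy, hy'⟩
          refine ⟨inv_mem hy, ?_⟩
          rw [inv_pow, ← hy']; group }
    have hEn : Ec.Normal := by
      constructor
      rintro y ⟨hy, hy'⟩ g
      refine ⟨hNn.conj_mem y hy g, ?_⟩
      have hyc : y ^ c ∈ N := pow_mem hy c
      have h1 := hTN ⁅g⁻¹, a⁆ (commutator_mem_dsub _ _ _) (y ^ c) hyc
      rw [conj_pow]
      calc a * (g * y * g⁻¹) * a⁻¹
          = g * (⁅g⁻¹, a⁆ * (a * y * a⁻¹) * ⁅g⁻¹, a⁆⁻¹) * g⁻¹ := by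
            rw [commutatorElement_def]; group
        _ = g * y ^ c * g⁻¹ := by rw [hy', h1]
    have hEN : Ec ≤ N := fun y hy => hy.1
    rcases hmin Ec hEn hEN with h | h
    · exfalso
      have : x ∈ Ec := ⟨hxN, hax⟩
      rw [h, Subgroup.mem_bot] at this
      exact hx1 this
    · intro y hy
      rw [← h] at hy
      exact hy.2
  -- `N` is cyclic
  obtain ⟨x₀, hx₀N, hx₀1⟩ : ∃ x₀ ∈ N, x₀ ≠ 1 := by
    by_contra hcon
    apply hNb
    rw [Subgroup.eq_bot_iff_forall]
    intro y hy
    by_contra hy1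
    exact hcon ⟨y, hy, hy1⟩
  have hzn : (zpowers x₀).Normal := by
    constructor
    intro y hy g
    obtain ⟨c, hc⟩ := hpow g
    obtain ⟨i, rfl⟩ := Subgroup.mem_zpowers_iff.mp hy
    rw [← conj_zpow, hc x₀ hx₀N]
    exact zpow_mem (pow_mem (mem_zpowers x₀) c) i
  have hzN : zpowers x₀ = N := by
    rcases hmin _ hzn ((zpowers_le).mpr hx₀N) with h | h
    · exfalso
      have := mem_zpowers x₀
      rw [h, Subgroup.mem_bot] at this
      exact hx₀1 this
    · exact h
  have hcyc : IsCyclic N := by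
    rw [← hzN]; infer_instance
  have hlt : Nat.card (G ⧸ N) < n := by
    have h1 : Nat.card G = Nat.card (G ⧸ N) * Nat.card N :=
      Subgroup.card_eq_card_quotient_mul_card_subgroup _
    have h2 : 1 < Nat.card N := by
      have h4 : Nat.card N ≠ 1 := fun h => hNb (Subgroup.card_eq_one.mp h)
      have h5 : 0 < Nat.card N := Nat.card_pos
      omega
    have h3 : 0 < Nat.card (G ⧸ N) := Nat.card_pos
    rw [← hcard, h1]
    nlinarith
  have hQn' : (Q.map (QuotientGroup.mk' N)).Normal :=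
    hQn.map _ (QuotientGroup.mk'_surjective N)
  have hq' : Cfsg.IsSupersolvable (G ⧸ N) := by
    refine ih _ hlt (G ⧸ N) rfl (Q.map (QuotientGroup.mk' N)) (hQ.map _) ?_ ?_
    · intro tb htb
      obtain ⟨t, ht, rfl⟩ := dsub_le_map (q - 1) (QuotientGroup.mk' N)
        (QuotientGroup.mk'_surjective N) htb
      obtain ⟨k, hk⟩ := hT t ht
      refine ⟨k, ?_⟩
      rintro _ ⟨x, hx, rfl⟩
      rw [← map_pow, ← map_mul, ← map_mul, hk x hx]
    · refine isSupersolvable_of_surjective
        (QuotientGroup.map Q (Q.map (QuotientGroup.mk' N)) (QuotientGroup.mk' N)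
          (Subgroup.le_comap_map _ _)) ?_ hss
      apply QuotientGroup.map_surjective_of_surjective
      intro y
      induction y using QuotientGroup.induction_on with
      | H y =>
        induction y using QuotientGroup.induction_on with
        | H g => exact ⟨g, rfl⟩
  exact isSupersolvable_of_cyclic_normal N hcyc hq'

end Cfsg.Agent.Lib.Helper48.SSKey
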