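import Mathlib
import Cfsg.Agent.Lib.Helper38.Sp4Stmt

/-!
S5320 pieces `NQ1` and `Q8N` (helper38's split), proved from the normal forms `CNF` and `QNF`.
-/

set_option autoImplicit false

namespace Cfsg.Agent.Lib.Helper48.Sp4NQ

open Matrix Cfsg.Agent.H85.PSL2Inv Cfsg.Agent.Lib.Helper42.SL2Odd
open Cfsg.Agent.Lib.Helper38.Sp4Stmt hiding w0

universe u
variable {F : Type u} [Field F]

local notation "SL2F" => Matrix.SpecialLinearGroup (Fin 2) F

theorem yy_entries (x y : F) (h : x ^ 2 + y ^ 2 = -1) :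
    (yy x y h) 0 0 = x ∧ (yy x y h) 0 1 = y ∧ (yy x y h) 1 0 = y ∧ (yy x y h) 1 1 = -x :=
  ⟨rfl, rfl, rfl, rfl⟩

theorem ww_entries (x y : F) (h : x ^ 2 + y ^ 2 = -1) (h2 : (2 : F) ≠ 0) :
    (ww x y h h2) 0 0 = (-1 + x - y) / 2 ∧ (ww x y h h2) 0 1 = (-1 + y + x) / 2 ∧
    (ww x y h h2) 1 0 = (1 + y + x) / 2 ∧ (ww x y h h2) 1 1 = (-1 - x + y) / 2 :=
  ⟨rfl, rfl, rfl, rfl⟩

theorem w0_sq : (w0 : SL2F) * w0 = -1 :=
  sq_of_trace_zero (by rw [w0_00, w0_11, add_zero])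

theorem yy_sq (x y : F) (h : x ^ 2 + y ^ 2 = -1) : yy x y h * yy x y h = -1 :=
  sq_of_trace_zero (by
    obtain ⟨y00, -, -, y11⟩ := yy_entries x y h
    rw [y00, y11, add_neg_cancel])

theorem yy_anti (x y : F) (h : x ^ 2 + y ^ 2 = -1) : yy x y h * w0 = -(w0 * yy x y h) :=
  (anti_w0_iff _).mpr (by
    obtain ⟨y00, y01, y10, y11⟩ := yy_entries x y h
    rw [y00, y01, y10, y11, neg_neg]
    exact ⟨rfl, rfl⟩)

theorem yy_inv (x y : F) (h : x ^ 2 + y ^ 2 = -1) : (yy x y h)⁻¹ = -yy x y h :=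
  inv_eq_of_mul_eq_one_right (by rw [mul_neg, yy_sq, neg_neg])

theorem one_ne_neg_one (h2 : (2 : F) ≠ 0) : (1 : SL2F) ≠ -1 := by
  intro e
  have e1 : (1 : SL2F) 0 0 = (-1 : SL2F) 0 0 := by rw [← e]
  rw [neg_entries, (one_entries (F := F)).1] at e1
  apply h2
  linear_combination e1

theorem w0_ne_neg_one : (w0 : SL2F) ≠ -1 := by
  intro e
  have e1 : (w0 : SL2F) 0 0 = (-1 : SL2F) 0 0 := by rw [← e]
  rw [neg_entries, (one_entries (F := F)).1, w0_00] at e1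
  have : (1 : F) = 0 := by linear_combination e1
  exact one_ne_zero this

/-- `yy` inverts the centralizer of `w0` -/
theorem yy_conj (x y : F) (h : x ^ 2 + y ^ 2 = -1) {c : SL2F} (hc : c * w0 = w0 * c) :
    yy x y h * c = c⁻¹ * yy x y h := by
  have key : c * yy x y h * c = yy x y h := by
    obtain ⟨h1, h2⟩ := (comm_w0_iff c).mp hc
    have hd := det_eq c
    obtain ⟨y00, y01, y10, y11⟩ := yy_entries x y h
    obtain ⟨a00, a01, a10, a11⟩ := mul_entries (c * yy x y h) c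
    obtain ⟨b00, b01, b10, b11⟩ := mul_entries c (yy x y h)
    apply ext_entries
    · rw [a00, b00, b01, y00, y01, y10, y11]; grind
    · rw [a01, b00, b01, y00, y01, y10, y11]; grind
    · rw [a10, b10, b11, y00, y01, y10, y11]; grind
    · rw [a11, b10, b11, y00, y01, y10, y11]; grind
  rw [eq_inv_mul_iff_mul_eq, ← mul_assoc]; exact key

theorem inv_comm_w0 {a : SL2F} (ha : a * w0 = w0 * a) : a⁻¹ * w0 = w0 * a⁻¹ := by
  calc a⁻¹ * w0 = a⁻¹ * (w0 * a) * a⁻¹ := by group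
    _ = a⁻¹ * (a * w0) * a⁻¹ := by rw [ha]
    _ = w0 * a⁻¹ := by group

theorem neg_one_mem_Cst (hC : CNF.{u}) : (-1 : SL2F) ∈ Cst F :=
  (hC F (-1)).mpr ⟨by rw [neg_one_mul, mul_neg_one], 1, by rw [pow_one, neg_one_sq]⟩

theorem w0_mem_Cst (hC : CNF.{u}) : (w0 : SL2F) ∈ Cst F :=
  (hC F w0).mpr ⟨rfl, 2, by
    have e : (w0 : SL2F) ^ (2 ^ 2) = (w0 * w0) * (w0 * w0) := by
      rw [show (2 : ℕ) ^ 2 = 2 + 2 from rfl, pow_add, pow_two]
    rw [e, w0_sq, neg_mul_neg, one_mul]⟩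

theorem yy_mem_Qst (hQ : QNF.{u}) (x y : F) (h : x ^ 2 + y ^ 2 = -1) :
    yy x y h ∈ Qst x y h :=
  (hQ F x y h _).mpr (Or.inr (by rw [mul_inv_cancel]; exact (Cst F).one_mem))

/-- an element of `C(w0)` normalizing `Qst` lies in `Cst` -/
theorem cent_norm_mem (hC : CNF.{u}) (hQ : QNF.{u}) (x y : F) (h : x ^ 2 + y ^ 2 = -1)
    (h2 : (2 : F) ≠ 0) {a : SL2F} (ha : a * w0 = w0 * a)
    (hn : ∀ c ∈ Qst x y h, a * c * a⁻¹ ∈ Qst x y h) : a ∈ Cst F := by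
  have h1 := hn _ (yy_mem_Qst hQ x y h)
  have e1 : a * yy x y h * a⁻¹ = a * a * yy x y h := by
    have e2 := yy_conj x y h (inv_comm_w0 ha)
    rw [inv_inv] at e2
    rw [mul_assoc, e2, ← mul_assoc]
  rw [e1] at h1
  have haa : (a * a) * w0 = w0 * (a * a) := by
    rw [mul_assoc, ha, ← mul_assoc, ha, mul_assoc]
  rcases (hQ F x y h _).mp h1 with h' | h'
  · exfalso
    have h3 := ((hC F _).mp h').1
    have h4 : (a * a) * (yy x y h * w0) = (a * a) * (w0 * yy x y h) := by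
      calc (a * a) * (yy x y h * w0) = (a * a * yy x y h) * w0 := by group
        _ = w0 * (a * a * yy x y h) := h3
        _ = (w0 * (a * a)) * yy x y h := by group
        _ = ((a * a) * w0) * yy x y h := by rw [haa]
        _ = (a * a) * (w0 * yy x y h) := by group
    exact not_comm_and_anti h2 (mul_left_cancel h4) (yy_anti x y h)
  · rw [mul_inv_cancel_right] at h'
    obtain ⟨k, hk⟩ := ((hC F _).mp h').2
    refine (hC F a).mpr ⟨ha, k + 1, ?_⟩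
    rw [pow_succ', pow_mul, pow_two]; exact hk

/-- an element normalizing `Qst` and sending `w0` to `±w0` lies in `Qst` -/
theorem norm_mem_of_w0 (hC : CNF.{u}) (hQ : QNF.{u}) (x y : F) (h : x ^ 2 + y ^ 2 = -1)
    (h2 : (2 : F) ≠ 0) {a : SL2F} (hn : ∀ c ∈ Qst x y h, a * c * a⁻¹ ∈ Qst x y h)
    (hw : a * w0 * a⁻¹ = w0 ∨ a * w0 * a⁻¹ = -w0) : a ∈ Qst x y h := by
  have hyQ := yy_mem_Qst hQ x y h
  rcases hw with hw | hw
  · have ha : a * w0 = w0 * a := mul_inv_eq_iff_eq_mul.mp hw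
    exact (hQ F x y h a).mpr (Or.inl (cent_norm_mem hC hQ x y h h2 ha hn))
  · have ha : a * w0 = -(w0 * a) := by
      have := mul_inv_eq_iff_eq_mul.mp hw
      rw [this, neg_mul]
    have ha' : (a * (yy x y h)⁻¹) * w0 = w0 * (a * (yy x y h)⁻¹) := by
      calc (a * (yy x y h)⁻¹) * w0 = -(a * (yy x y h * w0)) := by
            rw [yy_inv]; simp only [mul_neg, neg_mul, mul_assoc]
        _ = (a * w0) * yy x y h := by
            rw [yy_anti]; simp only [mul_neg, neg_neg, mul_assoc]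
        _ = -(w0 * a) * yy x y h := by rw [ha]
        _ = w0 * (a * (yy x y h)⁻¹) := by
            rw [yy_inv]; simp only [mul_neg, neg_mul, mul_assoc]
    have hn' : ∀ c ∈ Qst x y h,
        (a * (yy x y h)⁻¹) * c * (a * (yy x y h)⁻¹)⁻¹ ∈ Qst x y h := by
      intro c hc
      have e : (a * (yy x y h)⁻¹) * c * (a * (yy x y h)⁻¹)⁻¹ =
          a * ((yy x y h)⁻¹ * c * (yy x y h)⁻¹⁻¹) * a⁻¹ := by group
      rw [e]
      exact hn _ (mul_mem (mul_mem (inv_mem hyQ) hc) (inv_mem (inv_mem hyQ)))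
    exact (hQ F x y h a).mpr (Or.inr (cent_norm_mem hC hQ x y h h2 ha' hn'))

/-- elements of `Cst · yy` have square `-1` -/
theorem sq_of_mul_yy_inv (x y : F) (h : x ^ 2 + y ^ 2 = -1) {b : SL2F}
    (hd : (b * (yy x y h)⁻¹) * w0 = w0 * (b * (yy x y h)⁻¹)) : b * b = -1 := by
  have e := yy_conj x y h hd
  have e1 : b = (b * (yy x y h)⁻¹) * yy x y h := by group
  calc b * b = (b * (yy x y h)⁻¹) * (yy x y h * (b * (yy x y h)⁻¹)) * yy x y h := by group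
    _ = (b * (yy x y h)⁻¹) * ((b * (yy x y h)⁻¹)⁻¹ * yy x y h) * yy x y h := by rw [e]
    _ = yy x y h * yy x y h := by group
    _ = -1 := yy_sq x y h

theorem nq1_of (hC : CNF.{u}) (hQ : QNF.{u}) : NQ1.{u} := by
  intro F _ x y h h2 hsq a hn
  obtain ⟨r, hr⟩ := hsq
  have hr0 : r ≠ 0 := by
    rintro rfl
    apply h2; rw [hr, mul_zero]
  have hdet : (!![r⁻¹, -r⁻¹; r⁻¹, r⁻¹] : Matrix (Fin 2) (Fin 2) F).det = 1 := by
    rw [Matrix.det_fin_two_of]; grind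
  obtain ⟨c0, c00, c01, c10, c11⟩ : ∃ c0 : Matrix.SpecialLinearGroup (Fin 2) F,
      c0 0 0 = r⁻¹ ∧ c0 0 1 = -r⁻¹ ∧ c0 1 0 = r⁻¹ ∧ c0 1 1 = r⁻¹ :=
    ⟨⟨!![r⁻¹, -r⁻¹; r⁻¹, r⁻¹], hdet⟩, rfl, rfl, rfl, rfl⟩
  have c0w : c0 * w0 = w0 * c0 := (comm_w0_iff c0).mpr ⟨by rw [c00, c11], by rw [c01, c10]⟩
  have c0sq : c0 * c0 = w0 := by
    obtain ⟨a00, a01, a10, a11⟩ := mul_entries c0 c0
    apply ext_entries
    · rw [a00, c00, c01, c10, w0_00]; grind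
    · rw [a01, c00, c01, c11, w0_01]; grind
    · rw [a10, c00, c10, c11, w0_10]; grind
    · rw [a11, c01, c10, c11, w0_11]; grind
  have c0pow : c0 ^ (2 ^ 3) = 1 := by
    have e : c0 ^ (2 ^ 3) = ((c0 * c0) * (c0 * c0)) * ((c0 * c0) * (c0 * c0)) := by
      rw [show (2 : ℕ) ^ 3 = (2 + 2) + (2 + 2) from rfl, pow_add, pow_add, pow_two]
    rw [e, c0sq, w0_sq, neg_mul_neg, one_mul]
  have c0C : c0 ∈ Cst F := (hC F c0).mpr ⟨c0w, 3, c0pow⟩
  have c0Q : c0 ∈ Qst x y h := (hQ F x y h c0).mpr (Or.inl c0C)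
  have hb := hn c0 c0Q
  have hbb : (a * c0 * a⁻¹) * (a * c0 * a⁻¹) = a * w0 * a⁻¹ := by rw [← c0sq]; group
  have hne : a * w0 * a⁻¹ ≠ -1 := by
    intro e
    apply w0_ne_neg_one (F := F)
    calc (w0 : Matrix.SpecialLinearGroup (Fin 2) F) = a⁻¹ * (a * w0 * a⁻¹) * a := by group
      _ = a⁻¹ * (-1) * a := by rw [e]
      _ = -1 := by rw [mul_neg_one, neg_mul, inv_mul_cancel]
  have hbC : a * c0 * a⁻¹ ∈ Cst F := by
    rcases (hQ F x y h _).mp hb with h' | h'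
    · exact h'
    · exfalso
      have e := sq_of_mul_yy_inv x y h ((hC F _).mp h').1
      rw [hbb] at e
      exact hne e
  have hu : (a * w0 * a⁻¹) * w0 = w0 * (a * w0 * a⁻¹) := by
    have hbw := ((hC F _).mp hbC).1
    rw [← hbb, mul_assoc, hbw, ← mul_assoc, hbw, mul_assoc]
  have huu : (a * w0 * a⁻¹) * (a * w0 * a⁻¹) = -1 := by
    have e : (a * w0 * a⁻¹) * (a * w0 * a⁻¹) = a * (w0 * w0) * a⁻¹ := by group
    rw [e, w0_sq, mul_neg_one, neg_mul, mul_inv_cancel]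
  exact norm_mem_of_w0 hC hQ x y h h2 hn (cent_sq_neg_one h2 hu huu)

/-! ### the quaternion case -/

theorem ww_w0 (x y : F) (h : x ^ 2 + y ^ 2 = -1) (h2 : (2 : F) ≠ 0) :
    ww x y h h2 * w0 = w0 * yy x y h * ww x y h h2 := by
  obtain ⟨y00, y01, y10, y11⟩ := yy_entries x y h
  obtain ⟨w00, w01, w10, w11⟩ := ww_entries x y h h2
  obtain ⟨a00, a01, a10, a11⟩ := mul_w0_entries (ww x y h h2)
  obtain ⟨b00, b01, b10, b11⟩ := w0_mul_entries (yy x y h)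
  obtain ⟨c00, c01, c10, c11⟩ := mul_entries (w0 * yy x y h) (ww x y h h2)
  apply ext_entries
  · rw [a00, c00, b00, b01, y10, y11, w00, w01, w10]; grind
  · rw [a01, c01, b00, b01, y10, y11, w00, w01, w11]; grind
  · rw [a10, c10, b10, b11, y00, y01, w00, w11, w10]; grind
  · rw [a11, c11, b10, b11, y00, y01, w01, w11, w10]; grind

theorem ww_yy (x y : F) (h : x ^ 2 + y ^ 2 = -1) (h2 : (2 : F) ≠ 0) :
    ww x y h h2 * yy x y h = w0 * ww x y h h2 := by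
  obtain ⟨y00, y01, y10, y11⟩ := yy_entries x y h
  obtain ⟨w00, w01, w10, w11⟩ := ww_entries x y h h2
  obtain ⟨a00, a01, a10, a11⟩ := mul_entries (ww x y h h2) (yy x y h)
  obtain ⟨b00, b01, b10, b11⟩ := w0_mul_entries (ww x y h h2)
  apply ext_entries
  · rw [a00, b00, y00, y10, w00, w01, w10]; grind
  · rw [a01, b01, y01, y11, w00, w01, w11]; grind
  · rw [a10, b10, y00, y10, w00, w11, w10]; grind
  · rw [a11, b11, y01, y11, w01, w11, w10]; grind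

theorem ww_cube (x y : F) (h : x ^ 2 + y ^ 2 = -1) (h2 : (2 : F) ≠ 0) :
    ww x y h h2 * ww x y h h2 * ww x y h h2 = 1 := by
  obtain ⟨w00, w01, w10, w11⟩ := ww_entries x y h h2
  obtain ⟨a00, a01, a10, a11⟩ := mul_entries (ww x y h h2 * ww x y h h2) (ww x y h h2)
  obtain ⟨b00, b01, b10, b11⟩ := mul_entries (ww x y h h2) (ww x y h h2)
  obtain ⟨o00, o01, o10, o11⟩ := one_entries (F := F)
  apply ext_entries
  · rw [a00, b00, b01, w00, w01, w10, w11, o00]; grind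
  · rw [a01, b00, b01, w00, w01, w10, w11, o01]; grind
  · rw [a10, b10, b11, w00, w01, w10, w11, o10]; grind
  · rw [a11, b10, b11, w00, w01, w10, w11, o11]; grind

theorem ww_conj_w0 (x y : F) (h : x ^ 2 + y ^ 2 = -1) (h2 : (2 : F) ≠ 0) :
    ww x y h h2 * w0 * (ww x y h h2)⁻¹ = w0 * yy x y h :=
  mul_inv_eq_iff_eq_mul.mpr (ww_w0 x y h h2)

theorem ww_conj_yy (x y : F) (h : x ^ 2 + y ^ 2 = -1) (h2 : (2 : F) ≠ 0) :
    ww x y h h2 * yy x y h * (ww x y h h2)⁻¹ = w0 :=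
  mul_inv_eq_iff_eq_mul.mpr (ww_yy x y h h2)

theorem ww_conj_w0yy (x y : F) (h : x ^ 2 + y ^ 2 = -1) (h2 : (2 : F) ≠ 0) :
    ww x y h h2 * (w0 * yy x y h) * (ww x y h h2)⁻¹ = yy x y h := by
  have e : ww x y h h2 * (w0 * yy x y h) * (ww x y h h2)⁻¹ =
      (ww x y h h2 * w0 * (ww x y h h2)⁻¹) * (ww x y h h2 * yy x y h * (ww x y h h2)⁻¹) := by
    group
  rw [e, ww_conj_w0, ww_conj_yy, mul_assoc, yy_anti, mul_neg, ← mul_assoc, w0_sq, neg_mul,
    neg_neg, one_mul]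

theorem conj_neg (g c : SL2F) : g * (-c) * g⁻¹ = -(g * c * g⁻¹) := by
  rw [mul_neg, neg_mul]

/-- `ww` normalizes `Qst` in the quaternion case -/
theorem ww_norm (hC : CNF.{u}) (hQ : QNF.{u}) (x y : F) (h : x ^ 2 + y ^ 2 = -1)
    (h2 : (2 : F) ≠ 0) (hC4 : ∀ g ∈ Cst F, g = 1 ∨ g = -1 ∨ g = w0 ∨ g = -w0) :
    ∀ c ∈ Qst x y h, ww x y h h2 * c * (ww x y h h2)⁻¹ ∈ Qst x y h := by
  intro c hc
  have hm1 : (-1 : SL2F) ∈ Qst x y h := (hQ F x y h _).mpr (Or.inl (neg_one_mem_Cst hC))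
  have hnegQ : ∀ d ∈ Qst x y h, -d ∈ Qst x y h := fun d hd => by
    rw [← neg_one_mul]; exact mul_mem hm1 hd
  have hyQ := yy_mem_Qst hQ x y h
  have hwQ : (w0 : SL2F) ∈ Qst x y h := (hQ F x y h _).mpr (Or.inl (w0_mem_Cst hC))
  rcases (hQ F x y h c).mp hc with h' | h'
  · rcases hC4 _ h' with e | e | e | e
    · rw [e, mul_one, mul_inv_cancel]; exact one_mem _
    · rw [e, mul_neg_one, neg_mul, mul_inv_cancel]; exact hm1
    · rw [e, ww_conj_w0]; exact mul_mem hwQ hyQ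
    · rw [e, conj_neg, ww_conj_w0]; exact hnegQ _ (mul_mem hwQ hyQ)
  · rcases hC4 _ h' with e | e | e | e
    · rw [mul_inv_eq_iff_eq_mul.mp e, one_mul, ww_conj_yy]; exact hwQ
    · rw [mul_inv_eq_iff_eq_mul.mp e, neg_one_mul, conj_neg, ww_conj_yy]; exact hnegQ _ hwQ
    · rw [mul_inv_eq_iff_eq_mul.mp e, ww_conj_w0yy]; exact hyQ
    · rw [mul_inv_eq_iff_eq_mul.mp e, neg_mul, conj_neg, ww_conj_w0yy]; exact hnegQ _ hyQ

theorem q8n_aux (hC : CNF.{u}) (hQ : QNF.{u}) (x y : F) (h : x ^ 2 + y ^ 2 = -1)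
    (h2 : (2 : F) ≠ 0) {g a : SL2F} (hg : ∀ c ∈ Qst x y h, g * c * g⁻¹ ∈ Qst x y h)
    (hn : ∀ c ∈ Qst x y h, a * c * a⁻¹ ∈ Qst x y h)
    (hw : g * (a * w0 * a⁻¹) * g⁻¹ = w0 ∨ g * (a * w0 * a⁻¹) * g⁻¹ = -w0) :
    g * a ∈ Qst x y h := by
  apply norm_mem_of_w0 hC hQ x y h h2
  · intro c hc
    have e : g * a * c * (g * a)⁻¹ = g * (a * c * a⁻¹) * g⁻¹ := by group
    rw [e]; exact hg _ (hn c hc)
  · have e : g * a * w0 * (g * a)⁻¹ = g * (a * w0 * a⁻¹) * g⁻¹ := by group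
    rw [e]; exact hw

theorem q8n_of (hC : CNF.{u}) (hQ : QNF.{u}) : Q8N.{u} := by
  intro F _ x y h h2 hC4 a hn
  have hW := ww_norm hC hQ x y h h2 hC4
  have hW2 : ∀ c ∈ Qst x y h,
      (ww x y h h2 * ww x y h h2) * c * (ww x y h h2 * ww x y h h2)⁻¹ ∈ Qst x y h := by
    intro c hc
    have e : (ww x y h h2 * ww x y h h2) * c * (ww x y h h2 * ww x y h h2)⁻¹ =
        ww x y h h2 * (ww x y h h2 * c * (ww x y h h2)⁻¹) * (ww x y h h2)⁻¹ := by group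
    rw [e]; exact hW _ (hW _ hc)
  have hcube := ww_cube x y h h2
  have hwQ : (w0 : Matrix.SpecialLinearGroup (Fin 2) F) ∈ Qst x y h := (hQ F x y h _).mpr (Or.inl (w0_mem_Cst hC))
  have hu := hn w0 hwQ
  have huu : (a * w0 * a⁻¹) * (a * w0 * a⁻¹) = -1 := by
    have e : (a * w0 * a⁻¹) * (a * w0 * a⁻¹) = a * (w0 * w0) * a⁻¹ := by group
    rw [e, w0_sq, mul_neg_one, neg_mul, mul_inv_cancel]
  -- the two reductions
  have case1 : (ww x y h h2 * (a * w0 * a⁻¹) * (ww x y h h2)⁻¹ = w0 ∨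
      ww x y h h2 * (a * w0 * a⁻¹) * (ww x y h h2)⁻¹ = -w0) →
      ∃ c ∈ Qst x y h, a = c ∨ a = c * ww x y h h2 ∨ a = c * (ww x y h h2 * ww x y h h2) := by
    intro hw
    have hq := q8n_aux hC hQ x y h h2 hW hn hw
    refine ⟨ww x y h h2 * (ww x y h h2 * (ww x y h h2 * a) * (ww x y h h2)⁻¹) *
      (ww x y h h2)⁻¹, hW _ (hW _ hq), Or.inr (Or.inr ?_)⟩
    have e : ww x y h h2 * (ww x y h h2 * (ww x y h h2 * a) * (ww x y h h2)⁻¹) *
        (ww x y h h2)⁻¹ * (ww x y h h2 * ww x y h h2) =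
        (ww x y h h2 * ww x y h h2 * ww x y h h2) * a := by group
    rw [e, hcube, one_mul]
  have case2 : ((ww x y h h2 * ww x y h h2) * (a * w0 * a⁻¹) *
        (ww x y h h2 * ww x y h h2)⁻¹ = w0 ∨
      (ww x y h h2 * ww x y h h2) * (a * w0 * a⁻¹) *
        (ww x y h h2 * ww x y h h2)⁻¹ = -w0) →
      ∃ c ∈ Qst x y h, a = c ∨ a = c * ww x y h h2 ∨ a = c * (ww x y h h2 * ww x y h h2) := by
    intro hw
    have hq := q8n_aux hC hQ x y h h2 hW2 hn hw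
    refine ⟨ww x y h h2 * ((ww x y h h2 * ww x y h h2) * a) * (ww x y h h2)⁻¹, hW _ hq,
      Or.inr (Or.inl ?_)⟩
    have e : ww x y h h2 * ((ww x y h h2 * ww x y h h2) * a) * (ww x y h h2)⁻¹ * ww x y h h2 =
        (ww x y h h2 * ww x y h h2 * ww x y h h2) * a := by group
    rw [e, hcube, one_mul]
  have e2 : ∀ c : Matrix.SpecialLinearGroup (Fin 2) F, (ww x y h h2 * ww x y h h2) * c * (ww x y h h2 * ww x y h h2)⁻¹ =
      ww x y h h2 * (ww x y h h2 * c * (ww x y h h2)⁻¹) * (ww x y h h2)⁻¹ := by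
    intro c; group
  rcases (hQ F x y h _).mp hu with h' | h'
  · rcases hC4 _ h' with e | e | e | e
    · exfalso
      rw [e, one_mul] at huu
      exact one_ne_neg_one h2 huu
    · exfalso
      rw [e, neg_mul_neg, one_mul] at huu
      exact one_ne_neg_one h2 huu
    · exact ⟨a, norm_mem_of_w0 hC hQ x y h h2 hn (Or.inl e), Or.inl rfl⟩
    · exact ⟨a, norm_mem_of_w0 hC hQ x y h h2 hn (Or.inr e), Or.inl rfl⟩
  · rcases hC4 _ h' with e | e | e | e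
    · apply case1
      rw [mul_inv_eq_iff_eq_mul.mp e, one_mul, ww_conj_yy]
      exact Or.inl rfl
    · apply case1
      rw [mul_inv_eq_iff_eq_mul.mp e, neg_one_mul, conj_neg, ww_conj_yy]
      exact Or.inr rfl
    · apply case2
      rw [mul_inv_eq_iff_eq_mul.mp e, e2, ww_conj_w0yy, ww_conj_yy]
      exact Or.inl rfl
    · apply case2
      rw [mul_inv_eq_iff_eq_mul.mp e, neg_mul, e2, conj_neg, ww_conj_w0yy, conj_neg, ww_conj_yy]
      exact Or.inr rfl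

end Cfsg.Agent.Lib.Helper48.Sp4NQ
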