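import Mathlib
import Cfsg.Agent.Lib.Helper48.Sp4NQ
import Cfsg.Agent.Lib.Helper38.Sp4QNF

/-! S5320 piece `NQ1`. -/

set_option autoImplicit false

namespace Cfsg.Agent.Lib.Helper48.Sp4NQ1

universe u

theorem main : Cfsg.Agent.Lib.Helper38.Sp4Stmt.NQ1.{u} :=
  Cfsg.Agent.Lib.Helper48.Sp4NQ.nq1_of Cfsg.Agent.Lib.Helper38.Sp4CNF.main
    Cfsg.Agent.Lib.Helper38.Sp4QNF.main

end Cfsg.Agent.Lib.Helper48.Sp4NQ1
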