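import Mathlib
import Cfsg.Agent.Lib.Helper48.Sp4NQ
import Cfsg.Agent.Lib.Helper38.Sp4QNF

/-! S5320 piece `Q8N`. -/

set_option autoImplicit false

namespace Cfsg.Agent.Lib.Helper48.Sp4Q8N

universe u

theorem main : Cfsg.Agent.Lib.Helper38.Sp4Stmt.Q8N.{u} :=
  Cfsg.Agent.Lib.Helper48.Sp4NQ.q8n_of Cfsg.Agent.Lib.Helper38.Sp4CNF.main
    Cfsg.Agent.Lib.Helper38.Sp4QNF.main

end Cfsg.Agent.Lib.Helper48.Sp4Q8N
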