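import Mathlib
import Cfsg.Agent.Lib.Helper39.TLStmt

/-!
# S4404 piece CONJ: conjugates of reflections are reflections
-/

set_option autoImplicit false

namespace Cfsg.Agent.Lib.Helper48.TLCONJ

open Cfsg Cfsg.Agent.Lib.Helper39.TLStmt

universe u

theorem main : Conj.{u} := by
  intro S _ M hMn y W g h
  have hnorm : ∀ m ∈ M, g⁻¹ * m * g ∈ M := by
    intro m hm
    have := hMn.conj_mem m hm g⁻¹
    simpa using this
  refine ⟨?_, ?_, ?_, ?_, ?_⟩
  · rw [Subgroup.mem_centralizer_iff]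
    intro m hm
    have h1 := Subgroup.mem_centralizer_iff.mp h.cube (g⁻¹ * m * g) (hnorm m hm)
    have h2 : (g * y * g⁻¹) ^ 3 = g * y ^ 3 * g⁻¹ := by
      rw [pow_succ, pow_succ, pow_one, pow_succ, pow_succ, pow_one]; group
    rw [h2]
    calc m * (g * y ^ 3 * g⁻¹) = g * ((g⁻¹ * m * g) * y ^ 3) * g⁻¹ := by group
      _ = g * (y ^ 3 * (g⁻¹ * m * g)) * g⁻¹ := by rw [h1]
      _ = g * y ^ 3 * g⁻¹ * m := by group
  · intro w hw
    obtain ⟨v, hv, rfl⟩ := Subgroup.mem_map.mp hw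
    exact hMn.conj_mem v (h.le hv) g
  · rw [Subgroup.card_map_of_injective (MulAut.conj g).injective]
    exact h.card
  · intro m hm
    refine Subgroup.mem_map.mpr ⟨y * (g⁻¹ * m * g) * y⁻¹ * (g⁻¹ * m * g)⁻¹,
      h.comm _ (hnorm m hm), ?_⟩
    simp only [MulEquiv.coe_toMonoidHom, MulAut.conj_apply]
    group
  · intro w hw hfix
    obtain ⟨v, hv, rfl⟩ := Subgroup.mem_map.mp hw
    simp only [MulEquiv.coe_toMonoidHom, MulAut.conj_apply] at hfix ⊢
    have h1 : y * v * y⁻¹ = v := by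
      have h2 : g * (y * v * y⁻¹) * g⁻¹ = g * v * g⁻¹ := by
        rw [← hfix]; group
      exact mul_left_cancel (mul_right_cancel h2)
    rw [h.fix v hv h1]
    group

end Cfsg.Agent.Lib.Helper48.TLCONJ
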