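import Mathlib
import Cfsg.Agent.Lib.Helper39.TLStmt

/-!
# S4404 piece GEN: a generator of `Q` is a reflection with `W = ⁅Q, M⁆`
-/

set_option autoImplicit false

namespace Cfsg.Agent.Lib.Helper48.TLGEN

open Cfsg Cfsg.Agent.Lib.Helper39.TLStmt
open scoped commutatorElement

universe u

section

variable {S : Type u} [Group S]

theorem rearr (M : Subgroup S) (hcomm : ∀ a ∈ M, ∀ b ∈ M, a * b = b * a)
    {a b a₁ b₁ a₂ b₂ : S} (hb : b ∈ M) (ha₁ : a₁ ∈ M) (hb₁ : b₁ ∈ M) (ha₂ : a₂ ∈ M) :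
    a * b * (a₁ * b₁) * (a₂ * b₂) = (a * a₁ * a₂) * (b * b₁ * b₂) := by
  have e1 : b * a₁ = a₁ * b := hcomm b hb a₁ ha₁
  have e2 : (b * b₁) * a₂ = a₂ * (b * b₁) := hcomm _ (M.mul_mem hb hb₁) a₂ ha₂
  calc a * b * (a₁ * b₁) * (a₂ * b₂) = a * (b * a₁) * b₁ * a₂ * b₂ := by group
    _ = a * (a₁ * b) * b₁ * a₂ * b₂ := by rw [e1]
    _ = a * a₁ * ((b * b₁) * a₂) * b₂ := by group
    _ = a * a₁ * (a₂ * (b * b₁)) * b₂ := by rw [e2]
    _ = (a * a₁ * a₂) * (b * b₁ * b₂) := by group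

theorem conj_comm (x q a : S) (hqx : q * x = x * q) :
    x * (q * a * q⁻¹ * a⁻¹) * x⁻¹ = q * (x * a * x⁻¹) * q⁻¹ * (x * a * x⁻¹)⁻¹ := by
  have h3 : x⁻¹ * q⁻¹ = q⁻¹ * x⁻¹ := by rw [← mul_inv_rev, ← mul_inv_rev, hqx]
  calc x * (q * a * q⁻¹ * a⁻¹) * x⁻¹ = (x * q) * a * q⁻¹ * a⁻¹ * x⁻¹ := by group
    _ = (q * x) * a * q⁻¹ * a⁻¹ * x⁻¹ := by rw [hqx]
    _ = q * x * a * (q⁻¹ * x⁻¹) * x * a⁻¹ * x⁻¹ := by group
    _ = q * x * a * (x⁻¹ * q⁻¹) * x * a⁻¹ * x⁻¹ := by rw [h3]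
    _ = q * (x * a * x⁻¹) * q⁻¹ * (x * a * x⁻¹)⁻¹ := by group

/-- the kernel of the norm map `w ↦ w * τ w * τ (τ w)` on `M` -/
def normKer (M : Subgroup S) (x : S) (hcomm : ∀ a ∈ M, ∀ b ∈ M, a * b = b * a)
    (hinv : ∀ a ∈ M, a⁻¹ = a) (hconj : ∀ a ∈ M, x * a * x⁻¹ ∈ M) : Subgroup S where
  carrier := {w | w ∈ M ∧ w * (x * w * x⁻¹) * (x * (x * w * x⁻¹) * x⁻¹) = 1}
  one_mem' := ⟨M.one_mem, by group⟩
  mul_mem' := by
    rintro a b ⟨ha, ha'⟩ ⟨hb, hb'⟩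
    refine ⟨M.mul_mem ha hb, ?_⟩
    have t1 : x * (a * b) * x⁻¹ = (x * a * x⁻¹) * (x * b * x⁻¹) := by group
    have t2 : x * ((x * a * x⁻¹) * (x * b * x⁻¹)) * x⁻¹ =
        (x * (x * a * x⁻¹) * x⁻¹) * (x * (x * b * x⁻¹) * x⁻¹) := by group
    rw [t1, t2, rearr M hcomm hb (hconj a ha) (hconj b hb) (hconj _ (hconj a ha)), ha', hb',
      one_mul]
  inv_mem' := by
    rintro a ⟨ha, ha'⟩
    rw [hinv a ha]
    exact ⟨ha, ha'⟩

end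

theorem main : Gen.{u} := by
  intro S _ _ M hMn hEA Q hQc hcube hcard
  obtain ⟨hMc, hM2⟩ := hEA
  obtain ⟨g, hg⟩ := hQc.exists_generator
  have hcomm : ∀ a ∈ M, ∀ b ∈ M, a * b = b * a := by
    intro a ha b hb
    have h := hMc.is_comm.comm (⟨a, ha⟩ : M) ⟨b, hb⟩
    exact congrArg Subtype.val h
  have hinv : ∀ a ∈ M, a⁻¹ = a := by
    intro a ha
    have h := hM2 a ha
    rw [pow_two] at h
    exact inv_eq_of_mul_eq_one_left h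
  obtain ⟨x, hxdef⟩ : ∃ x : S, x = (g : S) := ⟨_, rfl⟩
  have hxQ : x ∈ Q := by rw [hxdef]; exact g.2
  have hconj : ∀ a ∈ M, x * a * x⁻¹ ∈ M := fun a ha => hMn.conj_mem a ha x
  have hpow : ∀ q ∈ Q, ∃ k : ℤ, q = x ^ k := by
    intro q hq
    obtain ⟨k, hk⟩ := Subgroup.mem_zpowers_iff.mp (hg ⟨q, hq⟩)
    refine ⟨k, ?_⟩
    have h := congrArg Subtype.val hk
    rw [hxdef]
    simpa using h.symm
  have hx3 : ∀ m ∈ M, x * (x * (x * m * x⁻¹) * x⁻¹) * x⁻¹ = m := by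
    intro m hm
    have h := Subgroup.mem_centralizer_iff.mp (hcube x hxQ) m hm
    have e : x * (x * (x * m * x⁻¹) * x⁻¹) * x⁻¹ = x ^ 3 * m * (x ^ 3)⁻¹ := by
      rw [pow_succ, pow_succ, pow_one]; group
    rw [e, ← h, mul_inv_cancel_right]
  have hle : ⁅Q, M⁆ ≤ normKer M x hcomm hinv hconj := by
    rw [Subgroup.commutator_le]
    intro q hq m hm
    obtain ⟨k, hk⟩ := hpow q hq
    have hqx : q * x = x * q := by
      rw [hk]; exact (Commute.zpow_self x k).eq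
    have hqM : ∀ a ∈ M, q * a * q⁻¹ ∈ M := fun a ha => hMn.conj_mem a ha q
    obtain ⟨m₁, hm₁def⟩ : ∃ m₁, m₁ = x * m * x⁻¹ := ⟨_, rfl⟩
    obtain ⟨m₂, hm₂def⟩ : ∃ m₂, m₂ = x * m₁ * x⁻¹ := ⟨_, rfl⟩
    have hm₁ : m₁ ∈ M := by rw [hm₁def]; exact hconj m hm
    have hm₂ : m₂ ∈ M := by rw [hm₂def]; exact hconj m₁ hm₁
    have hm₃ : x * m₂ * x⁻¹ = m := by rw [hm₂def, hm₁def]; exact hx3 m hm
    -- n is fixed by x
    have hn : x * (m * m₁ * m₂) * x⁻¹ = m * m₁ * m₂ := by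
      have e : x * (m * m₁ * m₂) * x⁻¹ = (x * m * x⁻¹) * (x * m₁ * x⁻¹) * (x * m₂ * x⁻¹) := by
        group
      rw [e, ← hm₁def, ← hm₂def, hm₃]
      exact (hcomm m hm _ (M.mul_mem hm₁ hm₂)).symm.trans (mul_assoc _ _ _).symm
    have hnM : m * m₁ * m₂ ∈ M := M.mul_mem (M.mul_mem hm hm₁) hm₂
    have hxc : x ∈ Subgroup.centralizer ({m * m₁ * m₂} : Set S) := by
      rw [Subgroup.mem_centralizer_iff]
      intro h hh
      rw [Set.mem_singleton_iff] at hh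
      rw [hh]
      nth_rewrite 1 [← hn]
      group
    have hqc : q ∈ Subgroup.centralizer ({m * m₁ * m₂} : Set S) := by
      rw [hk]; exact Subgroup.zpow_mem _ hxc k
    have hqn : q * (m * m₁ * m₂) * q⁻¹ = m * m₁ * m₂ := by
      have h := Subgroup.mem_centralizer_iff.mp hqc (m * m₁ * m₂) rfl
      rw [← h, mul_inv_cancel_right]
    refine ⟨?_, ?_⟩
    · rw [commutatorElement_def]
      exact M.mul_mem (hqM m hm) (M.inv_mem hm)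
    · show ⁅q, m⁆ * (x * ⁅q, m⁆ * x⁻¹) * (x * (x * ⁅q, m⁆ * x⁻¹) * x⁻¹) = 1
      rw [commutatorElement_def, conj_comm x q m hqx, ← hm₁def, conj_comm x q m₁ hqx, ← hm₂def,
        hinv m hm, hinv m₁ hm₁, hinv m₂ hm₂,
        rearr M hcomm hm (hqM m₁ hm₁) hm₁ (hqM m₂ hm₂)]
      have e : q * m * q⁻¹ * (q * m₁ * q⁻¹) * (q * m₂ * q⁻¹) = q * (m * m₁ * m₂) * q⁻¹ := by
        group
      rw [e, hqn, ← pow_two]
      exact hM2 _ hnM
  refine ⟨x, hxQ, ?_⟩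
  refine ⟨hcube x hxQ, Subgroup.commutator_le_right Q M, hcard, ?_, ?_⟩
  · intro m hm
    have h := Subgroup.commutator_mem_commutator hxQ hm
    rwa [commutatorElement_def] at h
  · intro w hw hfix
    obtain ⟨hwM, hν⟩ := hle hw
    rw [hfix, hfix] at hν
    have h2 := hM2 w hwM
    rw [pow_two] at h2
    rw [h2, one_mul] at hν
    exact hν

end Cfsg.Agent.Lib.Helper48.TLGEN
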