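import Mathlib
import Cfsg.Agent.Lib.Helper39.TLStmt

/-!
# S4404 piece REFLEQ: reflections with the same action on `M` have the same `W`
-/

set_option autoImplicit false

namespace Cfsg.Agent.Lib.Helper48.TLREFLEQ

open Cfsg Cfsg.Agent.Lib.Helper39.TLStmt

universe u

theorem main : ReflEq.{u} := by
  intro S _ _ M _ y y' W W' h h' hact
  let φ : W' → W' := fun v => ⟨y' * (v : S) * y'⁻¹ * (v : S)⁻¹, h'.comm v (h'.le v.2)⟩
  have hinj : Function.Injective φ := by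
    intro v v₂ hv
    have e : y' * (v : S) * y'⁻¹ * (v : S)⁻¹ = y' * (v₂ : S) * y'⁻¹ * (v₂ : S)⁻¹ :=
      congrArg Subtype.val hv
    have e2 : y' * (v : S) * y'⁻¹ = y' * (v₂ : S) * y'⁻¹ * (v₂ : S)⁻¹ * (v : S) := by
      rw [← e]; group
    have hfix : y' * ((v₂ : S)⁻¹ * (v : S)) * y'⁻¹ = (v₂ : S)⁻¹ * (v : S) := by
      calc y' * ((v₂ : S)⁻¹ * (v : S)) * y'⁻¹
          = (y' * (v₂ : S) * y'⁻¹)⁻¹ * (y' * (v : S) * y'⁻¹) := by group
        _ = (y' * (v₂ : S) * y'⁻¹)⁻¹ * (y' * (v₂ : S) * y'⁻¹ * (v₂ : S)⁻¹ * (v : S)) := by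
            rw [e2]
        _ = (v₂ : S)⁻¹ * (v : S) := by group
    have h1 := h'.fix _ (W'.mul_mem (W'.inv_mem v₂.2) v.2) hfix
    apply Subtype.ext
    exact (inv_mul_eq_one.mp h1).symm
  have hsurj : Function.Surjective φ := Finite.injective_iff_surjective.mp hinj
  have hle : W' ≤ W := by
    intro w hw
    obtain ⟨v, hv⟩ := hsurj ⟨w, hw⟩
    have e : y' * (v : S) * y'⁻¹ * (v : S)⁻¹ = w := congrArg Subtype.val hv
    rw [← e, ← hact (v : S) (h'.le v.2)]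
    exact h.comm _ (h'.le v.2)
  exact (Subgroup.eq_of_le_of_card_ge hle (by rw [h.card, h'.card])).symm

end Cfsg.Agent.Lib.Helper48.TLREFLEQ
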