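import Cfsg.Agent.Lib.Helper88.VFStmt

/-!
S5286 piece EQV: an injective homomorphism `φ : P → S` is realized in `Perm S` through the left
regular representation.
-/

set_option autoImplicit false

namespace Cfsg.Agent.Lib.Helper48.VFEQV

open Cfsg Cfsg.Agent.Lib.Helper88.VFDefs Cfsg.Agent.Lib.Helper88.VFStmt

universe u

/-- The decomposition of a group into cosets of a subgroup, via a transversal. -/
noncomputable def dS {S : Type*} [Group S] (A : Subgroup S) : S ≃ (S ⧸ A) × A where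
  toFun x := ((QuotientGroup.mk x : S ⧸ A),
    ⟨(Quotient.out (QuotientGroup.mk x : S ⧸ A))⁻¹ * x, by
      rw [← QuotientGroup.eq]; exact QuotientGroup.out_eq' _⟩)
  invFun p := Quotient.out p.1 * (p.2 : S)
  left_inv x := by simp
  right_inv p := by
    obtain ⟨q, v⟩ := p
    have h1 : (QuotientGroup.mk (Quotient.out q * (v : S)) : S ⧸ A) = q := by
      rw [QuotientGroup.mk_mul_of_mem _ v.2]; exact QuotientGroup.out_eq' q
    refine Prod.ext h1 (Subtype.ext ?_)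
    show (Quotient.out (QuotientGroup.mk (Quotient.out q * (v : S)) : S ⧸ A))⁻¹ *
      (Quotient.out q * (v : S)) = v
    rw [h1]; group

theorem dS_fst {S : Type*} [Group S] (A : Subgroup S) (x : S) :
    (dS A x).1 = (QuotientGroup.mk x : S ⧸ A) := rfl

theorem dS_snd {S : Type*} [Group S] (A : Subgroup S) (x : S) :
    ((dS A x).2 : S) = (Quotient.out (QuotientGroup.mk x : S ⧸ A))⁻¹ * x := rfl

theorem dS_symm {S : Type*} [Group S] (A : Subgroup S) (p : (S ⧸ A) × A) :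
    (dS A).symm p = Quotient.out p.1 * (p.2 : S) := rfl

theorem exists_equiv {S P : Type*} [Group S] [Group P] [Finite S] (ι₁ ι₂ : P →* S)
    (h₁ : Function.Injective ι₁) (h₂ : Function.Injective ι₂) :
    ∃ τ : S ≃ S, ∀ (x : S) (u : P), τ (x * ι₁ u) = τ x * ι₂ u := by
  classical
  have hPfin : Finite P := Finite.of_injective ι₁ h₁
  have hcA : Nat.card ι₁.range = Nat.card P :=
    (Nat.card_congr (MonoidHom.ofInjective h₁).toEquiv).symm
  have hcB : Nat.card ι₂.range = Nat.card P :=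
    (Nat.card_congr (MonoidHom.ofInjective h₂).toEquiv).symm
  have hidx : ι₁.range.index = ι₂.range.index := by
    have e1 := Subgroup.index_mul_card ι₁.range
    have e2 := Subgroup.index_mul_card ι₂.range
    rw [hcA] at e1
    rw [hcB] at e2
    have hpos : 0 < Nat.card P := Nat.card_pos
    exact Nat.eq_of_mul_eq_mul_right hpos (e1.trans e2.symm)
  have hq : Nat.card (S ⧸ ι₁.range) = Nat.card (S ⧸ ι₂.range) := by
    rw [← Subgroup.index_eq_card, ← Subgroup.index_eq_card]; exact hidx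
  obtain ⟨β⟩ := Finite.card_eq.1 hq
  let e : ι₁.range ≃* ι₂.range :=
    (MonoidHom.ofInjective h₁).symm.trans (MonoidHom.ofInjective h₂)
  have he : ∀ u : P, e ⟨ι₁ u, ⟨u, rfl⟩⟩ = ⟨ι₂ u, ⟨u, rfl⟩⟩ := by
    intro u
    have h3 : (MonoidHom.ofInjective h₁).symm ⟨ι₁ u, ⟨u, rfl⟩⟩ = u := by
      rw [MulEquiv.symm_apply_eq]; rfl
    show (MonoidHom.ofInjective h₂) ((MonoidHom.ofInjective h₁).symm ⟨ι₁ u, ⟨u, rfl⟩⟩) = _
    rw [h3]; rfl
  refine ⟨(dS ι₁.range).trans ((Equiv.prodCongr β e.toEquiv).trans (dS ι₂.range).symm), ?_⟩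
  intro x u
  have hm : (QuotientGroup.mk (x * ι₁ u) : S ⧸ ι₁.range) = QuotientGroup.mk x :=
    QuotientGroup.mk_mul_of_mem _ ⟨u, rfl⟩
  have h2 : (dS ι₁.range (x * ι₁ u)).2 = (dS ι₁.range x).2 * ⟨ι₁ u, ⟨u, rfl⟩⟩ := by
    apply Subtype.ext
    rw [dS_snd, Subgroup.coe_mul, dS_snd, hm, mul_assoc]
  have h1 : (dS ι₁.range (x * ι₁ u)).1 = (dS ι₁.range x).1 := hm
  show (dS ι₂.range).symm (β (dS ι₁.range (x * ι₁ u)).1, e (dS ι₁.range (x * ι₁ u)).2) =
    (dS ι₂.range).symm (β (dS ι₁.range x).1, e (dS ι₁.range x).2) * ι₂ u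
  rw [dS_symm, dS_symm, h1, h2, map_mul, he, Subgroup.coe_mul, mul_assoc]

theorem main : EqvP.{u} := by
  intro Ω _ S _ P hP φ hφ hinj
  obtain ⟨τ, hτ⟩ := exists_equiv (Subgroup.inclusion hP) (φ.codRestrict S hφ)
    (Subgroup.inclusion_injective hP) (by
      intro a b hab
      apply hinj
      have := congrArg (fun z : S => (z : Ω)) hab
      simpa using this)
  refine ⟨(Equiv.inv S).trans (τ.trans (Equiv.inv S)), ?_⟩
  intro u
  apply Equiv.ext
  intro x
  show (τ ((⟨u, hP u.2⟩ * x)⁻¹))⁻¹ = ⟨φ u, hφ u⟩ * (τ x⁻¹)⁻¹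
  have h3 : (⟨u, hP u.2⟩ * x : S)⁻¹ = x⁻¹ * Subgroup.inclusion hP u⁻¹ := by
    rw [mul_inv_rev]; rfl
  rw [h3, hτ, mul_inv_rev]
  congr 1
  rw [map_inv, inv_inv]
  rfl

end Cfsg.Agent.Lib.Helper48.VFEQV
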