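import Mathlib
import Cfsg.Agent.Lib.Helper88.VFStmt

/-!
S5286 piece MID.
-/

set_option autoImplicit false

namespace Cfsg.Agent.Lib.Helper48.VFMID

open Cfsg.Agent.Lib.Helper88.VFStmt

universe u

theorem main (hL : LcpP.{u}) : MidP.{u} := by
  intro Y _ a c k ha hc hca
  obtain ⟨p, s, t, hcw, haw, hw⟩ := hL c a
  have h1 : p.length + s.length ≤ k := by
    rw [hcw, List.length_append] at hc
    exact hc
  have h2 : p.length + t.length = 2 * k := by
    rw [haw, List.length_append] at ha
    exact ha
  have h3 : s.length + t.length ≤ k := by
    rw [hw, List.length_append, FreeGroup.invRev_length] at hca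
    exact hca
  have hs : s.length = 0 := by omega
  have hp : p.length = k := by omega
  have hs' : s = [] := List.length_eq_zero_iff.1 hs
  rw [hs', List.append_nil] at hcw
  have htake : (FreeGroup.toWord a).take k = p := by
    rw [haw]
    exact List.take_left' hp
  rw [htake, ← hcw, FreeGroup.mk_toWord]

end Cfsg.Agent.Lib.Helper48.VFMID
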