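import Mathlib
import Cfsg.Agent.Lib.Helper88.VFStmt

/-!
S5286 piece TREE.
-/

set_option autoImplicit false

namespace Cfsg.Agent.Lib.Helper48.VFTREE

open Cfsg.Agent.Lib.Helper88.VFStmt

universe u

theorem toWord_mk_length_le {Y : Type u} [DecidableEq Y] (L : List (Y × Bool)) :
    (FreeGroup.toWord (FreeGroup.mk L)).length ≤ L.length := by
  rw [FreeGroup.toWord_mk]
  exact (FreeGroup.Red.sublist FreeGroup.reduce.red).length_le

theorem main (hL : LcpP.{u}) : TreeP.{u} := by
  intro Y _ a x k ha hx hax
  obtain ⟨p, s, t, haw, hxw, hw⟩ := hL a x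
  have h1 : p.length + s.length = 2 * k := by
    rw [haw, List.length_append] at ha
    exact ha
  have h2 : p.length + t.length ≤ 2 * k := by
    rw [hxw, List.length_append] at hx
    exact hx
  have h3 : s.length + t.length ≤ 2 * k := by
    rw [hw, List.length_append, FreeGroup.invRev_length] at hax
    exact hax
  have hxe : x = FreeGroup.mk (p ++ t) := by
    rw [← hxw, FreeGroup.mk_toWord]
  by_cases hpk : k ≤ p.length
  · have htake : (FreeGroup.toWord a).take k = p.take k := by
      rw [haw, List.take_append_of_le_length hpk]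
    have hsplit : p ++ t = p.take k ++ (p.drop k ++ t) := by
      rw [← List.append_assoc, List.take_append_drop]
    have e1 : FreeGroup.mk (p.take k ++ (p.drop k ++ t)) =
        FreeGroup.mk (p.take k) * FreeGroup.mk (p.drop k ++ t) := FreeGroup.mul_mk.symm
    have hcx : (FreeGroup.mk (p.take k))⁻¹ * x = FreeGroup.mk (p.drop k ++ t) := by
      rw [hxe, hsplit, e1, inv_mul_cancel_left]
    rw [htake, hcx]
    refine (toWord_mk_length_le _).trans ?_
    rw [List.length_append, List.length_drop]
    omega
  · have hpk' : p.length < k := by omega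
    have htake : (FreeGroup.toWord a).take k = p ++ s.take (k - p.length) := by
      rw [haw, List.take_append, List.take_of_length_le (by omega)]
    have e1 : FreeGroup.mk (p ++ s.take (k - p.length)) =
        FreeGroup.mk p * FreeGroup.mk (s.take (k - p.length)) := FreeGroup.mul_mk.symm
    have e2 : FreeGroup.mk (p ++ t) = FreeGroup.mk p * FreeGroup.mk t := FreeGroup.mul_mk.symm
    have e3 : FreeGroup.mk (FreeGroup.invRev (s.take (k - p.length)) ++ t) =
        (FreeGroup.mk (s.take (k - p.length)))⁻¹ * FreeGroup.mk t := by
      rw [← FreeGroup.mul_mk, FreeGroup.inv_mk]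
    have hcx : (FreeGroup.mk (p ++ s.take (k - p.length)))⁻¹ * x =
        FreeGroup.mk (FreeGroup.invRev (s.take (k - p.length)) ++ t) := by
      rw [hxe, e1, e2, e3]
      group
    rw [htake, hcx]
    refine (toWord_mk_length_le _).trans ?_
    rw [List.length_append, FreeGroup.invRev_length, List.length_take]
    omega

end Cfsg.Agent.Lib.Helper48.VFTREE
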