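import Mathlib

/-!
# Index lemmas for Wielandt's bound `d! * ((d-1)!)^d`

Pure group theory (Mathlib only): indices of normal cores, of kernels of actions with a fixed
point, and of finite intersections of normal subgroups.
-/

set_option autoImplicit false

namespace Cfsg.Agent.Lib.Helper48.WielIdx

open Subgroup

/-- The index of the normal core of `H` divides `(index H)!`. -/
theorem index_normalCore_dvd {K : Type*} [Group K] [Finite K] (H : Subgroup K) :
    H.normalCore.index ∣ (H.index).factorial := by
  rw [normalCore_eq_ker, index_ker, index_eq_card, ← Nat.card_perm]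
  exact card_subgroup_dvd_card (MulAction.toPermHom K (K ⧸ H)).range

/-- The stabilizer of a point in the full symmetric group on a finite set with `n` points has
order `(n - 1)!`. -/
theorem card_stabilizer_perm {Y : Type*} [Finite Y] (y : Y) :
    Nat.card (MulAction.stabilizer (Equiv.Perm Y) y) = (Nat.card Y - 1).factorial := by
  have h1 := Subgroup.index_mul_card (MulAction.stabilizer (Equiv.Perm Y) y)
  rw [MulAction.index_stabilizer_of_transitive, Nat.card_perm] at h1
  have hpos : 0 < Nat.card Y := Nat.card_pos_iff.mpr ⟨⟨y⟩, inferInstance⟩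
  have h2 : Nat.card Y * (Nat.card Y - 1).factorial = (Nat.card Y).factorial :=
    Nat.mul_factorial_pred hpos.ne'
  rw [← h2] at h1
  exact Nat.eq_of_mul_eq_mul_left hpos h1

/-- A homomorphism to a symmetric group whose image fixes a point has a kernel of index
dividing `(n - 1)!`. -/
theorem index_ker_dvd_of_fix {A Y : Type*} [Group A] [Finite Y] (f : A →* Equiv.Perm Y) (y : Y)
    (hf : ∀ a : A, f a y = y) : f.ker.index ∣ (Nat.card Y - 1).factorial := by
  rw [index_ker, ← card_stabilizer_perm y]
  apply Subgroup.card_dvd_of_le
  rintro _ ⟨a, rfl⟩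
  rw [MulAction.mem_stabilizer_iff]
  exact hf a

/-- The index of the intersection of two subgroups, the first of which is normal, divides the
product of the indices. -/
theorem index_inf_dvd_mul {A : Type*} [Group A] (N₁ N₂ : Subgroup A) [N₁.Normal] :
    (N₁ ⊓ N₂).index ∣ N₁.index * N₂.index := by
  rw [← relIndex_mul_index (inf_le_right : N₁ ⊓ N₂ ≤ N₂), inf_relIndex_right]
  exact Nat.mul_dvd_mul_right (relIndex_dvd_index_of_normal N₁ N₂) _

/-- The index of a finite intersection of normal subgroups, each of index dividing `n`, divides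
a power of `n`. -/
theorem index_finset_inf_dvd {A ι : Type*} [Group A] (f : ι → Subgroup A)
    (hf : ∀ i, (f i).Normal) (n : ℕ) (hn : ∀ i, (f i).index ∣ n) (s : Finset ι) :
    (⨅ i ∈ s, f i).index ∣ n ^ s.card := by
  classical
  induction s using Finset.induction_on with
  | empty => simp
  | insert a s ha ih =>
    rw [Finset.iInf_insert, Finset.card_insert_of_notMem ha, pow_succ, mul_comm]
    have := hf a
    exact (index_inf_dvd_mul (f a) (⨅ i ∈ s, f i)).trans (Nat.mul_dvd_mul (hn a) ih)

theorem index_iInf_dvd {A ι : Type*} [Group A] [Finite ι] (f : ι → Subgroup A)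
    (hf : ∀ i, (f i).Normal) (n : ℕ) (hn : ∀ i, (f i).index ∣ n) :
    (⨅ i, f i).index ∣ n ^ Nat.card ι := by
  classical
  cases nonempty_fintype ι
  have h := index_finset_inf_dvd f hf n hn Finset.univ
  simpa [Nat.card_eq_fintype_card] using h

end Cfsg.Agent.Lib.Helper48.WielIdx
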