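import Mathlib
import Cfsg.Agent.Lib.Helper48.WielIdx
import Cfsg.Agent.Lib.Helper51.TWa

/-!
# Wielandt's index bound for the second core

For subgroups `M`, `M'` of a finite group, with first cores `A₁ = core_M(M ⊓ M')`,
`B₁ = core_{M'}(M ⊓ M')` and second core `A₂ = core_M(A₁ ⊓ B₁)`, the index of `A₂` in `M`
divides `d! * ((d' - 1)!)^d` where `d = |M : M ⊓ M'|` and `d' = |M' : M ⊓ M'|`.
-/

set_option autoImplicit false

namespace Cfsg.Agent.Lib.Helper48.WielCore

open Subgroup Cfsg.Agent.Lib.Helper48.WielIdx Cfsg.Agent.Lib.Helper51.TWa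

variable {G : Type*} [Group G]

/-- first core on the `M` side -/
abbrev A1 (M M' : Subgroup G) : Subgroup G := ((M ⊓ M').subgroupOf M).normalCore.map M.subtype

/-- first core on the `M'` side -/
abbrev B1 (M M' : Subgroup G) : Subgroup G := ((M ⊓ M').subgroupOf M').normalCore.map M'.subtype

/-- second core on the `M` side -/
abbrev A2 (M M' : Subgroup G) : Subgroup G :=
  ((A1 M M' ⊓ B1 M M').subgroupOf M).normalCore.map M.subtype

/-- second core on the `M'` side -/
abbrev B2 (M M' : Subgroup G) : Subgroup G :=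
  ((A1 M M' ⊓ B1 M M').subgroupOf M').normalCore.map M'.subtype

theorem A1_swap (M M' : Subgroup G) : A1 M' M = B1 M M' := by
  unfold A1 B1
  rw [inf_comm]

theorem B1_swap (M M' : Subgroup G) : B1 M' M = A1 M M' := by
  unfold A1 B1
  rw [inf_comm]

theorem A2_swap (M M' : Subgroup G) : A2 M' M = B2 M M' := by
  have h : A1 M' M ⊓ B1 M' M = A1 M M' ⊓ B1 M M' := by
    rw [A1_swap M M', B1_swap M M', inf_comm]
  show ((A1 M' M ⊓ B1 M' M).subgroupOf M').normalCore.map M'.subtype = _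
  rw [h]

theorem A1_le_left (M M' : Subgroup G) : A1 M M' ≤ M := coreIn_le_left _ _

theorem A1_le_right (M M' : Subgroup G) : A1 M M' ≤ M' :=
  (coreIn_le_right _ _).trans inf_le_right

theorem B1_le_left (M M' : Subgroup G) : B1 M M' ≤ M :=
  (coreIn_le_right _ _).trans inf_le_left

theorem B1_le_right (M M' : Subgroup G) : B1 M M' ≤ M' := coreIn_le_left _ _

theorem A2_le_A1 (M M' : Subgroup G) : A2 M M' ≤ A1 M M' :=
  (coreIn_le_right _ _).trans inf_le_left

theorem A2_le_B1 (M M' : Subgroup G) : A2 M M' ≤ B1 M M' :=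
  (coreIn_le_right _ _).trans inf_le_right

theorem conj_mem_A1 (M M' : Subgroup G) {m x : G} (hm : m ∈ M) (hx : x ∈ A1 M M') :
    m * x * m⁻¹ ∈ A1 M M' :=
  (mem_normalizer_iff.1 (coreIn_normalizer M (M ⊓ M') hm) x).1 hx

theorem conj_mem_B1 (M M' : Subgroup G) {m x : G} (hm : m ∈ M') (hx : x ∈ B1 M M') :
    m * x * m⁻¹ ∈ B1 M M' :=
  (mem_normalizer_iff.1 (coreIn_normalizer M' (M ⊓ M') hm) x).1 hx

theorem conj_mem_A2 (M M' : Subgroup G) {m x : G} (hm : m ∈ M) (hx : x ∈ A2 M M') :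
    m * x * m⁻¹ ∈ A2 M M' :=
  (mem_normalizer_iff.1 (coreIn_normalizer M (A1 M M' ⊓ B1 M M') hm) x).1 hx

/-- the relative index of the core of `D` in `K` divides `|K : D ⊓ K|!`. -/
theorem relIndex_core_dvd [Finite G] (K D : Subgroup G) :
    (((D.subgroupOf K).normalCore).map K.subtype).relIndex K ∣ (D.relIndex K).factorial := by
  have h : (((D.subgroupOf K).normalCore).map K.subtype).subgroupOf K
      = (D.subgroupOf K).normalCore :=
    Subgroup.comap_map_eq_self_of_injective K.subtype_injective _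
  unfold Subgroup.relIndex
  rw [h]
  exact index_normalCore_dvd _

theorem relIndex_A1_dvd [Finite G] (M M' : Subgroup G) :
    (A1 M M').relIndex M ∣ (M'.relIndex M).factorial := by
  have h := relIndex_core_dvd M (M ⊓ M')
  rwa [inf_relIndex_left] at h

/-- conjugation by `m⁻¹` (for `m ∈ M`) as a homomorphism from the first core to `M'`. -/
def cm (M M' : Subgroup G) (m : ↥M) : ↥(A1 M M') →* ↥M' :=
  MonoidHom.mk' (fun x => ⟨(m : G)⁻¹ * (x : G) * (m : G),
    A1_le_right M M' (by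
      have h := conj_mem_A1 M M' (M.inv_mem m.2) x.2
      simpa using h)⟩)
    (by
      intro x y
      apply Subtype.ext
      simp [mul_assoc])

theorem cm_coe (M M' : Subgroup G) (m : ↥M) (x : ↥(A1 M M')) :
    ((cm M M' m x : ↥M') : G) = (m : G)⁻¹ * (x : G) * (m : G) := rfl

/-- the action of the first core on the cosets of `M ⊓ M'` in `M'`, twisted by `m`. -/
def psi (M M' : Subgroup G) (m : ↥M) :
    ↥(A1 M M') →* Equiv.Perm (↥M' ⧸ M.subgroupOf M') :=
  (MulAction.toPermHom ↥M' (↥M' ⧸ M.subgroupOf M')).comp (cm M M' m)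

theorem psi_fix (M M' : Subgroup G) (m : ↥M) (x : ↥(A1 M M')) :
    psi M M' m x ((1 : ↥M') : ↥M' ⧸ M.subgroupOf M') = ((1 : ↥M') : ↥M' ⧸ M.subgroupOf M') := by
  have h1 : psi M M' m x ((1 : ↥M') : ↥M' ⧸ M.subgroupOf M')
      = ((cm M M' m x * 1 : ↥M') : ↥M' ⧸ M.subgroupOf M') := rfl
  rw [h1, mul_one, eq_comm, QuotientGroup.eq, inv_one, one_mul, mem_subgroupOf, cm_coe]
  have h := conj_mem_A1 M M' (M.inv_mem m.2) x.2
  have h2 : (m : G)⁻¹ * (x : G) * (m : G) ∈ A1 M M' := by simpa using h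
  exact A1_le_left M M' h2

theorem mem_ker_psi (M M' : Subgroup G) (m : ↥M) (x : ↥(A1 M M')) :
    x ∈ (psi M M' m).ker ↔ (m : G)⁻¹ * (x : G) * (m : G) ∈ B1 M M' := by
  have hxA : (m : G)⁻¹ * (x : G) * (m : G) ∈ A1 M M' := by
    have h := conj_mem_A1 M M' (M.inv_mem m.2) x.2
    simpa using h
  unfold psi
  rw [MonoidHom.mem_ker, MonoidHom.comp_apply, ← MonoidHom.mem_ker, ← normalCore_eq_ker]
  rw [mem_coreIn]
  constructor
  · intro h
    refine ⟨A1_le_right M M' hxA, fun k hk => ⟨?_, ?_⟩⟩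
    · have h1 : (⟨k, hk⟩ : ↥M') * cm M M' m x * (⟨k, hk⟩ : ↥M')⁻¹ ∈ M.subgroupOf M' := h ⟨k, hk⟩
      rw [mem_subgroupOf] at h1
      simpa [cm_coe] using h1
    · exact M'.mul_mem (M'.mul_mem hk (A1_le_right M M' hxA)) (M'.inv_mem hk)
  · rintro ⟨_, h⟩ k
    rw [mem_subgroupOf]
    have h1 := (h k k.2).1
    simpa [cm_coe] using h1

theorem index_ker_psi_dvd [Finite G] (M M' : Subgroup G) (m : ↥M) :
    (psi M M' m).ker.index ∣ (M.relIndex M' - 1).factorial := by
  have h := index_ker_dvd_of_fix (psi M M' m) ((1 : ↥M') : ↥M' ⧸ M.subgroupOf M')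
    (psi_fix M M' m)
  exact h

/-- the second core inside the first core is the intersection of the kernels over coset
representatives. -/
theorem A2_subgroupOf_eq (M M' : Subgroup G) :
    (A2 M M').subgroupOf (A1 M M')
      = ⨅ q : ↥M ⧸ M'.subgroupOf M, (psi M M' (Quotient.out q)).ker := by
  ext x
  rw [mem_subgroupOf, Subgroup.mem_iInf]
  simp only [mem_ker_psi]
  rw [mem_coreIn]
  constructor
  · rintro ⟨_, h⟩ q
    have h1 := (h ((Quotient.out q : ↥M) : G)⁻¹ (M.inv_mem (Quotient.out q).2)).2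
    simpa using h1
  · intro h
    refine ⟨A1_le_left M M' x.2, fun k hk => ⟨conj_mem_A1 M M' hk x.2, ?_⟩⟩
    obtain ⟨u, hu⟩ := QuotientGroup.mk_out_eq_mul (M'.subgroupOf M) (⟨k⁻¹, M.inv_mem hk⟩ : ↥M)
    have h1 := h (QuotientGroup.mk (⟨k⁻¹, M.inv_mem hk⟩ : ↥M))
    have hu' : ((Quotient.out (QuotientGroup.mk (s := M'.subgroupOf M)
        (⟨k⁻¹, M.inv_mem hk⟩ : ↥M)) : ↥M) : G) = k⁻¹ * ((u : ↥M) : G) := by
      have := congrArg (fun z : ↥M => (z : G)) hu
      simpa using this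
    rw [hu'] at h1
    have hu2 : ((u : ↥M) : G) ∈ M' := by
      have := u.2
      rwa [mem_subgroupOf] at this
    have h2 := conj_mem_B1 M M' hu2 h1
    have e : ((u : ↥M) : G) * ((k⁻¹ * ((u : ↥M) : G))⁻¹ * (x : G) * (k⁻¹ * ((u : ↥M) : G)))
        * ((u : ↥M) : G)⁻¹ = k * (x : G) * k⁻¹ := by group
    rwa [e] at h2

theorem relIndex_A2_A1_dvd [Finite G] (M M' : Subgroup G) :
    (A2 M M').relIndex (A1 M M') ∣ ((M.relIndex M' - 1).factorial) ^ (M'.relIndex M) := by
  unfold Subgroup.relIndex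
  rw [A2_subgroupOf_eq]
  have h := index_iInf_dvd (fun q : ↥M ⧸ M'.subgroupOf M => (psi M M' (Quotient.out q)).ker)
    (fun q => MonoidHom.normal_ker _) ((M.relIndex M' - 1).factorial)
    (fun q => index_ker_psi_dvd M M' _)
  exact h

/-- **Wielandt's bound** for the second core. -/
theorem relIndex_A2_dvd [Finite G] (M M' : Subgroup G) :
    (A2 M M').relIndex M ∣
      (M'.relIndex M).factorial * ((M.relIndex M' - 1).factorial) ^ (M'.relIndex M) := by
  rw [← relIndex_mul_relIndex (A2 M M') (A1 M M') M (A2_le_A1 M M') (A1_le_left M M'), mul_comm]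
  exact Nat.mul_dvd_mul (relIndex_A1_dvd M M') (relIndex_A2_A1_dvd M M')

end Cfsg.Agent.Lib.Helper48.WielCore
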